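import Cfsg.Agent.FewRels.Basic
import Cfsg.Agent.FewRels.Carmichael
import Cfsg.Agent.SLn.Basic
import Cfsg.Agent.SL2.Elements
import Cfsg.Agent.SL2Pres.Recognise
import Cfsg.Agent.S2286
set_option autoImplicit false

/-!
Alternating groups of degree `p + 3` from `SL₂(p)` acting on the projective line.
-/

namespace CfsgLib.FewRels

open Equiv
open Monoid (Coprod)
open CfsgLib.SL2 CfsgLib.SL2Pres.Short

theorem low_mul {F : Type*} [Field F] (c : F) (g : Matrix.SpecialLinearGroup (Fin 2) F) :
    ((upperU c * wOne F)⁻¹ * g).1 1 0 = g.1 0 0 - c * g.1 1 0 := by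
  rw [mul10, inv10, inv11, mul10, mul00]
  simp [wOne]
  ring

theorem upper_wOne {F : Type*} [Field F] (c : F) :
    (upperU c * wOne F).1 0 0 = -c ∧ (upperU c * wOne F).1 1 0 = -1 := by
  constructor <;> simp [wOne]

theorem diag_split {F : Type*} [Field F] (g : Matrix.SpecialLinearGroup (Fin 2) F) (hg : g.1 1 0 = 0) :
    ∃ d : Fˣ, g = diagT d * upperU (g.1 1 1 * g.1 0 1) := by
  have hd : g.1 0 0 * g.1 1 1 = 1 := by
    have := det_eq g
    rw [hg] at this
    linear_combination this
  refine ⟨⟨g.1 0 0, g.1 1 1, hd, by rw [mul_comm]; exact hd⟩, ?_⟩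
  refine ext2 ?_ ?_ ?_ ?_
  · simp
  · simp [← mul_assoc, hd]
  · simp [hg]
  · simp [hg, eq_inv_of_mul_eq_one_right hd]

theorem upper_transvection {F : Type*} [Field F] (c : F) (h : (0 : Fin 2) ≠ 1) :
    Matrix.SpecialLinearGroup.transvection h c = upperU c := by
  refine ext2 ?_ ?_ ?_ ?_ <;> simp [Matrix.SpecialLinearGroup.transvection_coe, Matrix.single]

theorem lower_transvection {F : Type*} [Field F] (c : F) (h : (1 : Fin 2) ≠ 0) :
    Matrix.SpecialLinearGroup.transvection h c = lowerU c := by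
  refine ext2 ?_ ?_ ?_ ?_ <;> simp [Matrix.SpecialLinearGroup.transvection_coe, Matrix.single]

theorem borel_entries {F : Type*} [Field F] (d : Fˣ) :
    (upperU (1 : F)).1 1 0 = 0 ∧ (diagT d).1 1 0 = 0 ∧ (1 : Matrix.SpecialLinearGroup (Fin 2) F).1 1 0 = 0 := by
  refine ⟨?_, ?_, ?_⟩ <;> simp

theorem diagT_zpow {F : Type*} [Field F] (d : Fˣ) (j : ℤ) : diagT (d ^ j) = diagT d ^ j :=
  map_zpow (CfsgLib.SL2Pres.Short.diagHom F) d j

theorem coset_split {F : Type*} [Field F] (g : Matrix.SpecialLinearGroup (Fin 2) F) (hg : g.1 1 0 ≠ 0) :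
    ∃ c : F, ((upperU c * wOne F)⁻¹ * g).1 1 0 = 0 :=
  ⟨g.1 0 0 / g.1 1 0, by rw [low_mul, div_mul_cancel₀ _ hg, sub_self]⟩

variable (p : ℕ) [hp : Fact p.Prime]

/-- The stabiliser of the point at infinity. -/
def borel (ω : (ZMod p)ˣ) : Subgroup (Matrix.SpecialLinearGroup (Fin 2) (ZMod p)) :=
  Subgroup.closure {upperU 1, diagT ω}

variable {p}

theorem upper_mem (ω : (ZMod p)ˣ) (v : ZMod p) : upperU v ∈ borel p ω := by
  have h : ∀ n : ℕ, upperU ((n : ZMod p)) ∈ borel p ω := by
    intro n
    induction n with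
    | zero => rw [Nat.cast_zero, CfsgLib.SL2.upperU_zero]; exact one_mem _
    | succ n ih =>
      rw [Nat.cast_succ, CfsgLib.SL2.upperU_add]
      exact mul_mem ih (Subgroup.subset_closure (Set.mem_insert _ _))
  simpa using h v.val

theorem borel_lower (ω : (ZMod p)ˣ) {g : Matrix.SpecialLinearGroup (Fin 2) (ZMod p)} (hg : g ∈ borel p ω) :
    g.1 1 0 = 0 := by
  induction hg using Subgroup.closure_induction with
  | mem x hx =>
    rcases hx with rfl | rfl
    · exact (borel_entries ω).1
    · exact (borel_entries ω).2.1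
  | one => exact (borel_entries ω).2.2
  | mul x y _ _ hx hy => rw [mul10, hx, hy]; ring
  | inv x _ hx => rw [inv10, hx, neg_zero]

theorem mem_borel {ω : (ZMod p)ˣ} (hω : ∀ z, z ∈ Subgroup.zpowers ω) {g : Matrix.SpecialLinearGroup (Fin 2) (ZMod p)}
    (hg : g.1 1 0 = 0) : g ∈ borel p ω := by
  obtain ⟨d, e⟩ := diag_split g hg
  obtain ⟨j, hj⟩ := Subgroup.mem_zpowers_iff.mp (hω d)
  rw [e]
  refine mul_mem ?_ (upper_mem ω _)
  have hm : diagT ω ∈ borel p ω := Subgroup.subset_closure (Set.mem_insert_of_mem _ (Set.mem_singleton _))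
  rw [← hj, diagT_zpow]
  exact Subgroup.zpow_mem _ hm j

theorem exists_coset {ω : (ZMod p)ˣ} (hω : ∀ z, z ∈ Subgroup.zpowers ω)
    (g : Matrix.SpecialLinearGroup (Fin 2) (ZMod p)) :
    g ∈ borel p ω ∨ ∃ c : ZMod p, (upperU c * wOne (ZMod p))⁻¹ * g ∈ borel p ω := by
  rcases eq_or_ne (g.1 1 0) 0 with hg | hg
  · exact Or.inl (mem_borel hω hg)
  · obtain ⟨c, hc⟩ := coset_split (F := ZMod p) g hg
    exact Or.inr ⟨c, mem_borel hω hc⟩

theorem closure_gens :
    Subgroup.closure ({upperU 1, wOne (ZMod p)} : Set (Matrix.SpecialLinearGroup (Fin 2) (ZMod p))) = ⊤ := by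
  set S := Subgroup.closure ({upperU 1, wOne (ZMod p)} : Set (Matrix.SpecialLinearGroup (Fin 2) (ZMod p)))
  have hu : ∀ v : ZMod p, upperU v ∈ S := by
    intro v
    have h : ∀ n : ℕ, upperU ((n : ZMod p)) ∈ S := by
      intro n
      induction n with
      | zero => rw [Nat.cast_zero, CfsgLib.SL2.upperU_zero]; exact one_mem _
      | succ n ih =>
        rw [Nat.cast_succ, CfsgLib.SL2.upperU_add]
        exact mul_mem ih (Subgroup.subset_closure (Set.mem_insert _ _))
    simpa using h v.val
  have hw : wOne (ZMod p) ∈ S := Subgroup.subset_closure (Set.mem_insert_of_mem _ rfl)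
  have hl : ∀ v : ZMod p, lowerU v ∈ S := fun v => by
    have := mul_mem (mul_mem hw (hu (-v))) (inv_mem hw)
    rwa [w_one_conj, neg_neg] at this
  rw [eq_top_iff, ← CfsgLib.SLn.closure_transvections, Subgroup.closure_le]
  rintro _ ⟨i, j, hij, c, rfl⟩
  fin_cases i <;> fin_cases j
  · exact absurd rfl hij
  · rw [SetLike.mem_coe]; exact (upper_transvection c hij).symm ▸ hu c
  · rw [SetLike.mem_coe]; exact (lower_transvection c hij).symm ▸ hl c
  · exact absurd rfl hij

/-- Alternating groups of degree `p + 3` have presentations with fifteen relations. -/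
theorem alt_prime (hodd : Odd p) : HasPres (alternatingGroup (Fin (p + 3))) 15 := by
  classical
  obtain ⟨ω, hω⟩ := exists_primitive (F := ZMod p)
  obtain ⟨⟨rels, hcard, ⟨eT⟩⟩, -⟩ := Cfsg.Agent.S2286.result (F := ZMod p)
  have hT : HasPres (Matrix.SpecialLinearGroup (Fin 2) (ZMod p)) 9 := HasPres.ofPresented rels hcard eT
  set B := borel p ω with hB
  let Q := Matrix.SpecialLinearGroup (Fin 2) (ZMod p) ⧸ B
  let pt : Option (ZMod p) → Q := fun o => o.elim (QuotientGroup.mk 1) fun c => QuotientGroup.mk (upperU c * wOne (ZMod p))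
  have hptbij : Function.Bijective pt := by
    constructor
    · rintro (_ | c) (_ | d) h
      · rfl
      · have h := QuotientGroup.eq.mp h
        rw [inv_one, one_mul] at h
        have := borel_lower ω h
        rw [(upper_wOne _).2] at this
        simp at this
      · have h := QuotientGroup.eq.mp h
        rw [mul_one] at h
        have := borel_lower ω (inv_mem h)
        rw [inv_inv, (upper_wOne _).2] at this
        simp at this
      · have h := QuotientGroup.eq.mp h
        have := borel_lower ω h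
        rw [low_mul, (upper_wOne _).1, (upper_wOne _).2] at this
        congr 1
        linear_combination this
    · intro q
      induction q using QuotientGroup.induction_on with
      | _ g =>
        rcases exists_coset hω g with h | ⟨c, h⟩
        · exact ⟨none, QuotientGroup.eq.mpr (by simpa using h)⟩
        · exact ⟨some c, QuotientGroup.eq.mpr h⟩
  let eQ : Q ≃ Option (ZMod p) := (Equiv.ofBijective pt hptbij).symm
  haveI : Fintype Q := Fintype.ofEquiv _ eQ.symm
  have hcardQ : Fintype.card Q = p + 1 := by rw [Fintype.card_congr eQ, Fintype.card_option, ZMod.card]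
  let a : Q ⊕ Fin 2 := Sum.inr 0
  let b : Q ⊕ Fin 2 := Sum.inr 1
  have hab : a ≠ b := by simp [a, b]
  let ρ₀ : Matrix.SpecialLinearGroup (Fin 2) (ZMod p) →* Perm (Q ⊕ Fin 2) :=
    (Equiv.Perm.sumCongrHom Q (Fin 2)).comp ((MulAction.toPermHom _ Q).prod 1)
  have hsign : ∀ g, ρ₀ g ∈ alternatingGroup (Q ⊕ Fin 2) := by
    have hu : ∀ v, Perm.sign (ρ₀ (upperU v)) = 1 := by
      intro v
      have h : (Perm.sign.comp ρ₀) (upperU v ^ p) = 1 := by
        rw [upperU_nsmul, CharP.cast_eq_zero, zero_mul, CfsgLib.SL2.upperU_zero, map_one]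
      rw [map_pow] at h
      rcases Int.units_eq_one_or (Perm.sign (ρ₀ (upperU v))) with h1 | h1
      · exact h1
      · rw [MonoidHom.comp_apply, h1, hodd.neg_one_pow] at h
        exact absurd h (by decide)
    have hker : (⊤ : Subgroup (Matrix.SpecialLinearGroup (Fin 2) (ZMod p))) ≤ (Perm.sign.comp ρ₀).ker := by
      rw [← closure_gens, Subgroup.closure_le]
      rintro g (rfl | rfl)
      · exact hu 1
      · show (Perm.sign.comp ρ₀) (wOne (ZMod p)) = 1
        have e : wOne (ZMod p) = upperU 1 * (wOne (ZMod p) * upperU 1 * (wOne (ZMod p))⁻¹) * upperU 1 := by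
          rw [w_one_conj]
          refine ext2 ?_ ?_ ?_ ?_ <;> simp [wOne, mul00, mul01, mul10, mul11]
        rw [e, map_mul, map_mul, map_mul, map_mul, map_inv, mul_inv_cancel_comm]
        simp [hu 1]
    intro g
    exact Perm.mem_alternatingGroup.mpr (hker (Subgroup.mem_top g))
  let ψA : Matrix.SpecialLinearGroup (Fin 2) (ZMod p) →* alternatingGroup (Q ⊕ Fin 2) := ρ₀.codRestrict _ hsign
  have hρl : ∀ g (q : Q), (ψA g : Perm (Q ⊕ Fin 2)) (Sum.inl q) = Sum.inl (g • q) := fun g q => rfl
  have hρr : ∀ g (i : Fin 2), (ψA g : Perm (Q ⊕ Fin 2)) (Sum.inr i) = Sum.inr i := fun g i => rfl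
  let cI : Q → alternatingGroup (Q ⊕ Fin 2) := fun q => ⟨cyc a b (Sum.inl q), cyc_mem (by simp [a]) hab⟩
  have hconj : ∀ g q, ψA g * cI q * (ψA g)⁻¹ = cI (g • q) := fun g q => Subtype.ext (by
    show (ψA g : Perm (Q ⊕ Fin 2)) * cyc a b (Sum.inl q) * (ψA g : Perm (Q ⊕ Fin 2))⁻¹ = _
    rw [cyc_conj, hρl, show (ψA g : Perm (Q ⊕ Fin 2)) a = a from hρr g 0, show (ψA g : Perm (Q ⊕ Fin 2)) b = b from hρr g 1])
  let q0 : Q := QuotientGroup.mk 1
  have hq0 : ∀ g : Matrix.SpecialLinearGroup (Fin 2) (ZMod p), g • q0 = QuotientGroup.mk g := fun g => by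
    show g • ((1 : Matrix.SpecialLinearGroup (Fin 2) (ZMod p)) : Q) = _
    rw [MulAction.Quotient.smul_coe, smul_eq_mul, mul_one]
  let ψB : FreeGroup (Fin 1) →* alternatingGroup (Q ⊕ Fin 2) := FreeGroup.lift fun _ => cI q0
  let C := Coprod (Matrix.SpecialLinearGroup (Fin 2) (ZMod p)) (FreeGroup (Fin 1))
  let xC : C := Coprod.inr (FreeGroup.of 0)
  have hxC : Coprod.lift ψA ψB xC = cI q0 := by simp [xC, ψB]
  let N : Subgroup C := Subgroup.closure (Set.range fun g : Matrix.SpecialLinearGroup (Fin 2) (ZMod p) =>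
    (Coprod.inl g : C) * xC * (Coprod.inl g)⁻¹)
  have hNsurj : ∀ s : alternatingGroup (Q ⊕ Fin 2), ∃ w ∈ N, Coprod.lift ψA ψB w = s := by
    intro s
    have hs := (closure_cyc hab).ge s.2
    have : s.1 ∈ Subgroup.map ((alternatingGroup (Q ⊕ Fin 2)).subtype.comp (Coprod.lift ψA ψB)) N := by
      refine (Subgroup.closure_le _).mpr ?_ hs
      rintro _ ⟨i, hai, hbi, rfl⟩
      rcases i with q | i
      · induction q using QuotientGroup.induction_on with
        | _ g =>
          refine ⟨_, Subgroup.subset_closure ⟨g, rfl⟩, ?_⟩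
          simp only [MonoidHom.comp_apply, map_mul, map_inv, Coprod.lift_apply_inl, hxC]
          rw [← map_inv, ← map_mul, ← map_mul, hconj]
          show cyc a b (Sum.inl (g • q0)) = _
          rw [hq0 g]
      · fin_cases i
        · exact absurd rfl hai
        · exact absurd rfl hbi
    obtain ⟨w, hw, e⟩ := this
    exact ⟨w, hw, Subtype.ext e⟩
  choose word hwordN hword using hNsurj
  let t := wOne (ZMod p)
  let gens : List (Matrix.SpecialLinearGroup (Fin 2) (ZMod p)) := [upperU 1, t]
  let extra : List C :=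
    [xC ^ 3, (Coprod.inl (upperU 1) : C) * xC * (Coprod.inl (upperU 1))⁻¹ * xC⁻¹,
      (Coprod.inl (diagT ω) : C) * xC * (Coprod.inl (diagT ω))⁻¹ * xC⁻¹,
      (xC * ((Coprod.inl t : C) * xC * (Coprod.inl t)⁻¹)) ^ 2] ++
      gens.map fun g => (Coprod.inl g : C) * (word (ψA g))⁻¹
  have hne : t • q0 ≠ q0 := by
    intro h
    rw [hq0 t, QuotientGroup.eq] at h
    have := borel_lower ω h
    simp [t, wOne, inv10] at this
  have hfix : ∀ g ∈ B, g • q0 = q0 := fun g hg => by
    rw [hq0 g]
    exact QuotientGroup.eq.mpr (by simpa using hg)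
  have hA : HasPres (alternatingGroup (Q ⊕ Fin 2)) (9 + 0 + extra.length) := by
    refine HasPres.amalgam hT (HasPres.free 1) ψA ψB ?_ extra ?_ ?_
    · rw [eq_top_iff]
      intro s _
      obtain ⟨w, -, hw⟩ : ∃ w, w ∈ N ∧ Coprod.lift ψA ψB w = s := ⟨word s, hwordN s, hword s⟩
      rw [← Coprod.range_lift]
      exact ⟨w, hw⟩
    · intro r hr
      simp only [extra, List.mem_append, List.mem_cons, List.not_mem_nil, or_false, List.mem_map] at hr
      rcases hr with (rfl | rfl | rfl | rfl) | ⟨g, -, rfl⟩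
      · rw [map_pow, hxC]
        exact Subtype.ext (cyc_pow_three hab (by simp [a]) (by simp [b]))
      · simp only [map_mul, map_inv, Coprod.lift_apply_inl, hxC]
        rw [hconj, hfix _ (Subgroup.subset_closure (Set.mem_insert _ _)), mul_inv_cancel]
      · simp only [map_mul, map_inv, Coprod.lift_apply_inl, hxC]
        rw [hconj,
          hfix _ (Subgroup.subset_closure (Set.mem_insert_of_mem _ rfl)), mul_inv_cancel]
      · simp only [map_pow, map_mul, map_inv, Coprod.lift_apply_inl, hxC]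
        rw [hconj]
        exact Subtype.ext (cyc_rel hab (by simp [a]) (by simp [b]) (by simp [a]) (by simp [b])
          (fun e => hne (Sum.inl_injective e).symm))
      · simp only [map_mul, map_inv, Coprod.lift_apply_inl, hword, mul_inv_cancel]
    intro G _ φA φB π hπA hπB hgen hrel
    set X := φB (FreeGroup.of 0) with hX
    have hlx : Coprod.lift φA φB xC = X := by simp [xC, hX]
    have r1 := hrel _ (show xC ^ 3 ∈ extra by simp [extra])
    have r2 := hrel _ (show (Coprod.inl (upperU 1) : C) * xC * (Coprod.inl (upperU 1))⁻¹ * xC⁻¹ ∈ extra by simp [extra])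
    have r3 := hrel _ (show (Coprod.inl (diagT ω) : C) * xC * (Coprod.inl (diagT ω))⁻¹ * xC⁻¹ ∈ extra by simp [extra])
    have r4 := hrel _ (show (xC * ((Coprod.inl t : C) * xC * (Coprod.inl t)⁻¹)) ^ 2 ∈ extra by simp [extra])
    simp only [map_pow, map_mul, map_inv, Coprod.lift_apply_inl, hlx, mul_inv_eq_one] at r1 r2 r3 r4
    have hstab : ∀ g ∈ B, φA g * X * (φA g)⁻¹ = X := by
      intro g hg
      have hle : B ≤ (Subgroup.centralizer {X}).comap φA := by
        refine (Subgroup.closure_le _).mpr ?_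
        rintro z (rfl | rfl) <;> simp only [SetLike.mem_coe, Subgroup.mem_comap, Subgroup.mem_centralizer_singleton_iff]
        · exact (mul_inv_eq_iff_eq_mul.mp r2)
        · exact (mul_inv_eq_iff_eq_mul.mp r3)
      have := hle hg
      rw [Subgroup.mem_comap, Subgroup.mem_centralizer_singleton_iff] at this
      exact mul_inv_eq_iff_eq_mul.mpr this
    let Xq : Q → G := fun q => φA q.out * X * (φA q.out)⁻¹
    have hXq : ∀ g : Matrix.SpecialLinearGroup (Fin 2) (ZMod p), Xq (QuotientGroup.mk g) = φA g * X * (φA g)⁻¹ := by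
      intro g
      obtain ⟨⟨h, hh⟩, e⟩ := QuotientGroup.mk_out_eq_mul B g
      show φA _ * X * (φA _)⁻¹ = _
      rw [e, map_mul, show φA g * φA h * X * (φA g * φA h)⁻¹ = φA g * (φA h * X * (φA h)⁻¹) * (φA g)⁻¹ by group, hstab h hh]
    let x : {i : Q ⊕ Fin 2 // a ≠ i ∧ b ≠ i} → G := fun i => i.1.elim Xq fun _ => 1
    have hi : ∀ i : {i : Q ⊕ Fin 2 // a ≠ i ∧ b ≠ i}, ∃ g, i.1 = Sum.inl (QuotientGroup.mk g) ∧ x i = φA g * X * (φA g)⁻¹ := by
      rintro ⟨q | i, h1, h2⟩
      · induction q using QuotientGroup.induction_on with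
        | _ g => exact ⟨g, rfl, hXq g⟩
      · fin_cases i
        · exact absurd rfl h1
        · exact absurd rfl h2
    refine injective_of_carmichael hab π x ?_ ?_ ?_ ?_
    · intro i
      obtain ⟨g, hg, hx⟩ := hi i
      rw [hx, map_mul, map_mul, map_inv, show π (φA g) = ψA g from DFunLike.congr_fun hπA g,
        show π X = ψB (FreeGroup.of 0) from DFunLike.congr_fun hπB _, show ψB (FreeGroup.of 0) = cI q0 by simp [ψB],
        hconj, hg]
      show cyc a b (Sum.inl (g • q0)) = _
      rw [hq0 g]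
    · intro i
      obtain ⟨g, -, hx⟩ := hi i
      rw [hx, conj_pow, r1, mul_one, mul_inv_cancel]
    · intro i j hij
      obtain ⟨g, hg, hx⟩ := hi i
      obtain ⟨k, hk, hy⟩ := hi j
      have hne' : g⁻¹ * k ∉ B := fun h => hij (Subtype.ext (by rw [hg, hk, QuotientGroup.eq.mpr h]))
      rcases exists_coset hω (g⁻¹ * k) with h | ⟨c, hc⟩
      · exact absurd h hne'
      · set u := upperU c
        have e : k = g * u * t * ((u * t)⁻¹ * (g⁻¹ * k)) := by group
        have hy' : x j = (φA g * φA u) * (φA t * X * (φA t)⁻¹) * (φA g * φA u)⁻¹ := by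
          rw [hy, e, map_mul _ (g * u * t), map_mul, map_mul,
            show ∀ z, φA g * φA u * φA t * z * X * (φA g * φA u * φA t * z)⁻¹ =
              (φA g * φA u) * (φA t * (z * X * z⁻¹) * (φA t)⁻¹) * (φA g * φA u)⁻¹ from fun z => by group,
            hstab _ hc]
        have hx' : x i = (φA g * φA u) * X * (φA g * φA u)⁻¹ := by
          rw [hx, show (φA g * φA u) * X * (φA g * φA u)⁻¹ = φA g * (φA u * X * (φA u)⁻¹) * (φA g)⁻¹ by group,
            hstab u (upper_mem ω c)]
        rw [hx', hy', conj_mul, conj_pow, r4, mul_one, mul_inv_cancel]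
    · set K := Subgroup.closure (Set.range x)
      have hK : ∀ g, φA g * X * (φA g)⁻¹ ∈ K := fun g => Subgroup.subset_closure
        ⟨⟨Sum.inl (QuotientGroup.mk g), by simp [a], by simp [b]⟩, hXq g⟩
      have hNK : ∀ w ∈ N, Coprod.lift φA φB w ∈ K := by
        intro w hw
        have hle : N ≤ K.comap (Coprod.lift φA φB) := by
          refine (Subgroup.closure_le _).mpr ?_
          rintro _ ⟨g, rfl⟩
          simp only [SetLike.mem_coe, Subgroup.mem_comap, map_mul, map_inv, Coprod.lift_apply_inl, hlx]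
          erw [map_inv, Coprod.lift_apply_inl]
          exact hK g
        exact hle hw
      have hg : ∀ g ∈ gens, φA g ∈ K := by
        intro g hg
        have := hrel ((Coprod.inl g : C) * (word (ψA g))⁻¹)
          (by simp only [extra, List.mem_append, List.mem_map]; exact Or.inr ⟨g, hg, rfl⟩)
        simp only [map_mul, map_inv, Coprod.lift_apply_inl, mul_inv_eq_one] at this
        rw [this]
        exact hNK _ (hwordN _)
      rw [eq_top_iff, ← hgen, sup_le_iff]
      constructor
      · rw [MonoidHom.range_eq_map, ← closure_gens, MonoidHom.map_closure, Subgroup.closure_le]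
        rintro _ ⟨g, hgg, rfl⟩
        rcases hgg with rfl | rfl <;> exact hg _ (by simp [gens, t])
      · rw [MonoidHom.range_eq_map, ← FreeGroup.closure_range_of, MonoidHom.map_closure, Subgroup.closure_le]
        rintro _ ⟨_, ⟨i, rfl⟩, rfl⟩
        have := hK 1
        rw [map_one, one_mul, inv_one, mul_one] at this
        rwa [Subsingleton.elim i 0]
  refine (hA.congr ?_).mono (by simp [extra, gens])
  exact Equiv.altCongrHom (Fintype.equivFinOfCardEq (by simp [hcardQ]))

end CfsgLib.FewRels
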