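import Cfsg.Agent.FewRels.Glue
import Cfsg.Agent.FewRels.Prime
set_option autoImplicit false

/-!
All alternating groups have presentations with boundedly many relations.
-/

namespace CfsgLib.FewRels

open Equiv
open Monoid (Coprod)

/-- Carmichael's relations for the small degrees. -/
theorem alt_small {α : Type*} [Fintype α] [DecidableEq α] {a b : α} (hab : a ≠ b) (hα : Fintype.card α ≤ 6) :
    HasPres (alternatingGroup α) 16 := by
  classical
  set ι := {i : α // a ≠ i ∧ b ≠ i}
  have hι : Fintype.card ι ≤ 4 := by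
    have e : Finset.univ.filter (fun i => a ≠ i ∧ b ≠ i) = (Finset.univ \ {a, b} : Finset α) := by
      ext i; simp [eq_comm]
    rw [Fintype.card_subtype, e, Finset.card_sdiff, Finset.inter_univ, Finset.card_univ, Finset.card_pair hab]
    omega
  let eι := Fintype.equivFin ι
  let c : ι → alternatingGroup α := fun i => ⟨cyc a b i.1, cyc_mem i.2.1 hab⟩
  let ψA : FreeGroup (Fin (Fintype.card ι)) →* alternatingGroup α := FreeGroup.lift fun k => c (eι.symm k)
  let X : ι → Coprod (FreeGroup (Fin (Fintype.card ι))) (FreeGroup (Fin 0)) := fun i => Coprod.inl (FreeGroup.of (eι i))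
  let pairs := (Finset.univ : Finset (ι × ι)).toList.map fun q => if q.1 = q.2 then X q.1 ^ 3 else (X q.1 * X q.2) ^ 2
  have hψ : ∀ i, ψA (FreeGroup.of (eι i)) = c i := fun i => by simp [ψA]
  have h := HasPres.amalgam (H := alternatingGroup α) (HasPres.free (Fintype.card ι)) (HasPres.free 0) ψA 1 ?_ pairs ?_ ?_
  · refine h.mono ?_
    simp only [pairs, List.length_map, Finset.length_toList, Finset.card_univ, Fintype.card_prod, zero_add]
    exact Nat.mul_le_mul hι hι
  · rw [eq_top_iff]
    intro g _
    have hg : g.1 ∈ Subgroup.map (alternatingGroup α).subtype (ψA.range ⊔ (1 : FreeGroup (Fin 0) →* _).range) := by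
      refine (Subgroup.closure_le _).mpr ?_ ((closure_cyc hab).ge g.2)
      rintro _ ⟨i, hai, hbi, rfl⟩
      exact ⟨c ⟨i, hai, hbi⟩, Subgroup.mem_sup_left ⟨_, hψ _⟩, rfl⟩
    obtain ⟨g', hg', e⟩ := hg
    rwa [← show g' = g from Subtype.ext e]
  · intro r hr
    simp only [pairs, List.mem_map] at hr
    obtain ⟨⟨i, j⟩, -, rfl⟩ := hr
    dsimp only
    split_ifs with e
    · rw [map_pow]; simp only [X, Coprod.lift_apply_inl, hψ]
      exact Subtype.ext (cyc_pow_three hab i.2.1 i.2.2)
    · rw [map_pow, map_mul]; simp only [X, Coprod.lift_apply_inl, hψ]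
      exact Subtype.ext (cyc_rel hab i.2.1 i.2.2 j.2.1 j.2.2 (fun h => e (Subtype.ext h)))
  · intro G _ φA φB π hπA hπB hgen hrel
    refine injective_of_carmichael hab π (fun i => φA (FreeGroup.of (eι i))) ?_ ?_ ?_ ?_
    · intro i
      rw [show π (φA (FreeGroup.of (eι i))) = ψA (FreeGroup.of (eι i)) from DFunLike.congr_fun hπA _, hψ]
    · intro i
      have := hrel (X i ^ 3) (List.mem_map.mpr ⟨(i, i), by simp, by simp⟩)
      simpa [X] using this
    · intro i j hij
      have := hrel ((X i * X j) ^ 2) (List.mem_map.mpr ⟨(i, j), by simp, by simp [hij]⟩)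
      simpa [X] using this
    · rw [eq_top_iff, ← hgen, sup_le_iff]
      constructor
      · rw [MonoidHom.range_eq_map, ← FreeGroup.closure_range_of, MonoidHom.map_closure, Subgroup.closure_le]
        rintro _ ⟨_, ⟨k, rfl⟩, rfl⟩
        exact Subgroup.subset_closure ⟨eι.symm k, by simp⟩
      · rw [MonoidHom.range_eq_map, ← FreeGroup.closure_range_of, MonoidHom.map_closure, Subgroup.closure_le]
        rintro _ ⟨_, ⟨k, rfl⟩, rfl⟩
        exact k.elim0

/-- Boundedly many relations for every alternating group. -/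
theorem alt_bounded (n : ℕ) (hn : 2 ≤ n) : HasPres (alternatingGroup (Fin n)) 36 := by
  classical
  rcases Nat.lt_or_ge n 7 with h6 | h7
  · exact (alt_small (a := (⟨0, by omega⟩ : Fin n)) (b := ⟨1, by omega⟩) (by simp [Fin.ext_iff])
      (by rw [Fintype.card_fin]; omega)).mono (by norm_num)
  obtain ⟨p, hp, hlo, hhi⟩ := Nat.exists_prime_lt_and_le_two_mul ((n - 3) / 2) (by omega)
  have : Fact p.Prime := ⟨hp⟩
  have hodd : Odd p := hp.odd_of_ne_two (by omega)
  have hN : HasPres (alternatingGroup (Fin (p + 3))) 15 := alt_prime hodd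
  rcases Nat.lt_or_ge (p + 3) n with hlt | hge
  swap
  · rw [show n = p + 3 by omega]; exact hN.mono (by norm_num)
  set P : Finset (Fin n) := Finset.univ.filter fun i => i.1 < p + 3 with hP
  set Q : Finset (Fin n) := Finset.univ.filter fun i => i.1 < 2 ∨ n - (p + 1) ≤ i.1 with hQ
  have hcP : P.card = p + 3 := by
    rw [hP, Fin.card_filter_val_lt]
    omega
  have hcQ : Q.card = p + 3 := by
    have e : Q = Finset.univ \ (Finset.univ.filter (fun i : Fin n => i.1 < n - (p + 1)) \
        Finset.univ.filter (fun i : Fin n => i.1 < 2)) := by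
      ext i; simp [hQ]; omega
    rw [e, Finset.card_sdiff, Finset.inter_univ, Finset.card_univ, Finset.card_sdiff, Fintype.card_fin,
      Finset.inter_eq_left.mpr (by intro i; simp; omega), Fin.card_filter_val_lt, Fin.card_filter_val_lt]
    omega
  refine (alt_glue (a := (⟨0, by omega⟩ : Fin n)) (b := ⟨1, by omega⟩) (by simp [Fin.ext_iff]) P Q (by simp [hP]) (by simp [hP])
    (by simp [hQ]) (by simp [hQ]) (fun x => ?_) (i0 := ⟨2, by omega⟩) (j0 := ⟨n - 1, by omega⟩) ?_ ?_ ?_ ?_
    (hN.congr (Equiv.altCongrHom (Fintype.equivFinOfCardEq (by rw [Fintype.card_coe, hcP])).symm))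
    (hN.congr (Equiv.altCongrHom (Fintype.equivFinOfCardEq (by rw [Fintype.card_coe, hcQ])).symm))).mono (by norm_num)
  all_goals simp [hP, hQ]
  all_goals omega

end CfsgLib.FewRels
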