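import Mathlib
set_option autoImplicit false

/-!
Groups with a presentation on finitely many generators and a bounded number of relations.
-/

namespace CfsgLib.FewRels

open Monoid (Coprod)

universe u v w

/-- `H` is presented by finitely many generators and at most `R` relations. -/
def HasPres (H : Type u) [Group H] (R : ℕ) : Prop :=
  ∃ (k : ℕ) (rels : List (FreeGroup (Fin k))), rels.length ≤ R ∧
    Nonempty (PresentedGroup {r | r ∈ rels} ≃* H)

variable {H : Type u} [Group H] {R : ℕ}

theorem HasPres.congr {H' : Type v} [Group H'] (h : HasPres H R) (e : H ≃* H') : HasPres H' R := by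
  obtain ⟨k, rels, hl, ⟨e'⟩⟩ := h
  exact ⟨k, rels, hl, ⟨e'.trans e⟩⟩

theorem HasPres.mono {R' : ℕ} (h : HasPres H R) (hR : R ≤ R') : HasPres H R' := by
  obtain ⟨k, rels, hl, e⟩ := h
  exact ⟨k, rels, hl.trans hR, e⟩

theorem HasPres.ofPresented {k : ℕ} (rels : Finset (FreeGroup (Fin k))) (hR : rels.card ≤ R)
    (e : PresentedGroup (↑rels : Set (FreeGroup (Fin k))) ≃* H) : HasPres H R := by
  have h : {r | r ∈ rels.toList} = (↑rels : Set (FreeGroup (Fin k))) := by ext r; simp
  exact ⟨k, rels.toList, by simpa using hR, ⟨by rw [h]; exact e⟩⟩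

/-- Free groups need no relations. -/
theorem HasPres.free (k : ℕ) : HasPres (FreeGroup (Fin k)) 0 := by
  refine ⟨k, [], le_rfl, ⟨MulEquiv.symm (MonoidHom.toMulEquiv (PresentedGroup.mk _)
    (PresentedGroup.toGroup (f := FreeGroup.of) (fun r hr => by simp at hr)) ?_ ?_)⟩⟩
  · exact FreeGroup.ext_hom _ _ fun i => FreeGroup.lift_apply_of
  · refine PresentedGroup.ext fun i => ?_
    simp only [MonoidHom.comp_apply, PresentedGroup.toGroup.of, MonoidHom.id_apply]
    rfl

/-- Two presented groups glued by extra relations. -/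
theorem HasPres.amalgam {A : Type v} [Group A] {B : Type w} [Group B] {RA RB : ℕ} (hA : HasPres A RA)
    (hB : HasPres B RB) (ψA : A →* H) (ψB : B →* H)
    (hgen : ψA.range ⊔ ψB.range = ⊤) (extra : List (Coprod A B))
    (hold : ∀ r ∈ extra, Coprod.lift ψA ψB r = 1)
    (hinj : ∀ {G : Type} [Group G] (φA : A →* G) (φB : B →* G) (π : G →* H), π.comp φA = ψA →
      π.comp φB = ψB → φA.range ⊔ φB.range = ⊤ → (∀ r ∈ extra, Coprod.lift φA φB r = 1) → Function.Injective π) :
    HasPres H (RA + RB + extra.length) := by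
  classical
  obtain ⟨kA, relsA, hlA, ⟨eA⟩⟩ := hA
  obtain ⟨kB, relsB, hlB, ⟨eB⟩⟩ := hB
  let ιA : FreeGroup (Fin kA) →* FreeGroup (Fin (kA + kB)) := FreeGroup.map (Fin.castAdd kB)
  let ιB : FreeGroup (Fin kB) →* FreeGroup (Fin (kA + kB)) := FreeGroup.map (Fin.natAdd kA)
  let fA : FreeGroup (Fin kA) →* A := eA.toMonoidHom.comp (PresentedGroup.mk _)
  let fB : FreeGroup (Fin kB) →* B := eB.toMonoidHom.comp (PresentedGroup.mk _)
  have hfA : Function.Surjective fA := eA.surjective.comp (PresentedGroup.mk_surjective _)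
  have hfB : Function.Surjective fB := eB.surjective.comp (PresentedGroup.mk_surjective _)
  let wp : FreeGroup (Fin (kA + kB)) →* Coprod A B :=
    FreeGroup.lift (Fin.addCases (fun i => Coprod.inl (fA (FreeGroup.of i))) fun i => Coprod.inr (fB (FreeGroup.of i)))
  have hwA : ∀ a, wp (ιA a) = Coprod.inl (fA a) := fun a => by
    have : wp.comp ιA = Coprod.inl.comp fA := FreeGroup.ext_hom _ _ fun i => by simp [wp, ιA]
    exact DFunLike.congr_fun this a
  have hwB : ∀ b, wp (ιB b) = Coprod.inr (fB b) := fun b => by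
    have : wp.comp ιB = Coprod.inr.comp fB := FreeGroup.ext_hom _ _ fun i => by simp [wp, ιB]
    exact DFunLike.congr_fun this b
  have hwp : Function.Surjective wp := by
    rw [← MonoidHom.range_eq_top, eq_top_iff, ← Coprod.range_inl_sup_range_inr, sup_le_iff]
    constructor
    · rintro _ ⟨a, rfl⟩
      obtain ⟨x, rfl⟩ := hfA a
      exact ⟨ιA x, hwA x⟩
    · rintro _ ⟨b, rfl⟩
      obtain ⟨x, rfl⟩ := hfB b
      exact ⟨ιB x, hwB x⟩
  choose word hword using hwp
  let rels := relsA.map ιA ++ relsB.map ιB ++ extra.map word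
  refine ⟨kA + kB, rels, by simp [rels]; omega, ?_⟩
  let f : FreeGroup (Fin (kA + kB)) →* PresentedGroup {r | r ∈ rels} := PresentedGroup.mk _
  have hrel : ∀ r ∈ rels, f r = 1 := fun r hr => PresentedGroup.one_of_mem hr
  let φA₀ : PresentedGroup {r | r ∈ relsA} →* PresentedGroup {r | r ∈ rels} :=
    PresentedGroup.toGroup (f := fun i => f (ιA (FreeGroup.of i))) (fun r hr => by
      have e : FreeGroup.lift (fun i => f (ιA (FreeGroup.of i))) = f.comp ιA := FreeGroup.ext_hom _ _ fun i => by simp
      rw [e]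
      exact hrel _ (by simp only [rels, List.mem_append, List.mem_map]; exact Or.inl (Or.inl ⟨r, hr, rfl⟩)))
  let φB₀ : PresentedGroup {r | r ∈ relsB} →* PresentedGroup {r | r ∈ rels} :=
    PresentedGroup.toGroup (f := fun i => f (ιB (FreeGroup.of i))) (fun r hr => by
      have e : FreeGroup.lift (fun i => f (ιB (FreeGroup.of i))) = f.comp ιB := FreeGroup.ext_hom _ _ fun i => by simp
      rw [e]
      exact hrel _ (by simp only [rels, List.mem_append, List.mem_map]; exact Or.inl (Or.inr ⟨r, hr, rfl⟩)))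
  let φA : A →* PresentedGroup {r | r ∈ rels} := φA₀.comp eA.symm.toMonoidHom
  let φB : B →* PresentedGroup {r | r ∈ rels} := φB₀.comp eB.symm.toMonoidHom
  have hφA : ∀ a, φA (fA a) = f (ιA a) := fun a => by
    have : φA₀.comp (PresentedGroup.mk _) = f.comp ιA := FreeGroup.ext_hom _ _ fun i => FreeGroup.lift_apply_of
    show φA₀ (eA.symm (eA (PresentedGroup.mk _ a))) = _
    rw [MulEquiv.symm_apply_apply]
    exact DFunLike.congr_fun this a
  have hφB : ∀ a, φB (fB a) = f (ιB a) := fun a => by
    have : φB₀.comp (PresentedGroup.mk _) = f.comp ιB := FreeGroup.ext_hom _ _ fun i => FreeGroup.lift_apply_of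
    show φB₀ (eB.symm (eB (PresentedGroup.mk _ a))) = _
    rw [MulEquiv.symm_apply_apply]
    exact DFunLike.congr_fun this a
  have hlift : ∀ x, Coprod.lift φA φB (wp x) = f x := by
    intro x
    have : (Coprod.lift φA φB).comp wp = f := by
      refine FreeGroup.ext_hom _ _ fun i => ?_
      refine Fin.addCases (fun j => ?_) (fun j => ?_) i
      · simp [wp, hφA, ιA]
      · simp [wp, hφB, ιB]
    exact DFunLike.congr_fun this x
  let π₀ : FreeGroup (Fin (kA + kB)) →* H := (Coprod.lift ψA ψB).comp wp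
  let π : PresentedGroup {r | r ∈ rels} →* H :=
    PresentedGroup.toGroup (f := fun i => π₀ (FreeGroup.of i)) (fun r hr => by
      have e : FreeGroup.lift (fun i => π₀ (FreeGroup.of i)) = π₀ := FreeGroup.ext_hom _ _ fun i => by simp
      rw [e]
      simp only [rels, List.mem_append, List.mem_map, Set.mem_setOf_eq] at hr
      rcases hr with (⟨r, hr, rfl⟩ | ⟨r, hr, rfl⟩) | ⟨r, hr, rfl⟩
      · simp only [π₀, MonoidHom.comp_apply, hwA, Coprod.lift_apply_inl]
        rw [show fA r = eA (PresentedGroup.mk _ r) from rfl, PresentedGroup.one_of_mem hr, map_one, map_one]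
      · simp only [π₀, MonoidHom.comp_apply, hwB, Coprod.lift_apply_inr]
        rw [show fB r = eB (PresentedGroup.mk _ r) from rfl, PresentedGroup.one_of_mem hr, map_one, map_one]
      · simp only [π₀, MonoidHom.comp_apply, hword]
        exact hold r hr)
  have hπf : ∀ x, π (f x) = π₀ x := fun x => by
    have : π.comp f = π₀ := FreeGroup.ext_hom _ _ fun i => FreeGroup.lift_apply_of
    exact DFunLike.congr_fun this x
  have hπA : π.comp φA = ψA := MonoidHom.ext fun a => by
    obtain ⟨x, rfl⟩ := hfA a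
    simp only [MonoidHom.comp_apply, hφA, hπf, π₀, hwA, Coprod.lift_apply_inl]
  have hπB : π.comp φB = ψB := MonoidHom.ext fun a => by
    obtain ⟨x, rfl⟩ := hfB a
    simp only [MonoidHom.comp_apply, hφB, hπf, π₀, hwB, Coprod.lift_apply_inr]
  have hgenG : φA.range ⊔ φB.range = ⊤ := by
    rw [← Coprod.range_lift, eq_top_iff]
    rintro x -
    obtain ⟨y, rfl⟩ := PresentedGroup.mk_surjective _ x
    exact ⟨wp y, hlift y⟩
  have hinj' := hinj φA φB π hπA hπB hgenG fun r hr => by
    rw [← hword r, hlift]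
    exact hrel _ (by simp only [rels, List.mem_append, List.mem_map]; exact Or.inr ⟨r, hr, rfl⟩)
  refine ⟨MulEquiv.ofBijective π ⟨hinj', ?_⟩⟩
  rw [← MonoidHom.range_eq_top, eq_top_iff, ← hgen, sup_le_iff]
  constructor
  · rintro _ ⟨a, rfl⟩; exact ⟨φA a, DFunLike.congr_fun hπA a⟩
  · rintro _ ⟨b, rfl⟩; exact ⟨φB b, DFunLike.congr_fun hπB b⟩

/-- Killing one more element. -/
theorem HasPres.quot {Q : Type v} [Group Q] (h : HasPres H R) (f : H →* Q) (hf : Function.Surjective f)
    (z : H) (hz : f z = 1) (hker : f.ker ≤ Subgroup.zpowers z) : HasPres Q (R + 1) := by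
  classical
  obtain ⟨k, rels, hl, ⟨e⟩⟩ := h
  let g : FreeGroup (Fin k) →* H := e.toMonoidHom.comp (PresentedGroup.mk _)
  have hg : Function.Surjective g := e.surjective.comp (PresentedGroup.mk_surjective _)
  obtain ⟨wz, rfl⟩ := hg z
  refine ⟨k, rels ++ [wz], by simp; omega, ?_⟩
  let m : FreeGroup (Fin k) →* PresentedGroup {r | r ∈ rels ++ [wz]} := PresentedGroup.mk _
  let θ₀ : PresentedGroup {r | r ∈ rels} →* PresentedGroup {r | r ∈ rels ++ [wz]} :=
    PresentedGroup.toGroup (f := fun i => m (FreeGroup.of i)) (fun r hr => by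
      have e : FreeGroup.lift (fun i => m (FreeGroup.of i)) = m := FreeGroup.ext_hom _ _ fun i => by simp
      rw [e]
      exact PresentedGroup.one_of_mem (by simp only [Set.mem_setOf_eq, List.mem_append]; exact Or.inl hr))
  let θ : H →* PresentedGroup {r | r ∈ rels ++ [wz]} := θ₀.comp e.symm.toMonoidHom
  have hθ : ∀ x, θ (g x) = m x := fun x => by
    have : θ₀.comp (PresentedGroup.mk _) = m := FreeGroup.ext_hom _ _ fun i => FreeGroup.lift_apply_of
    show θ₀ (e.symm (e (PresentedGroup.mk _ x))) = _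
    rw [MulEquiv.symm_apply_apply]
    exact DFunLike.congr_fun this x
  let π : PresentedGroup {r | r ∈ rels ++ [wz]} →* Q :=
    PresentedGroup.toGroup (f := fun i => f (g (FreeGroup.of i))) (fun r hr => by
      have e' : FreeGroup.lift (fun i => f (g (FreeGroup.of i))) = f.comp g := FreeGroup.ext_hom _ _ fun i => by simp
      rw [e', MonoidHom.comp_apply]
      simp only [List.mem_append, Set.mem_setOf_eq, List.mem_singleton] at hr
      rcases hr with hr | rfl
      · rw [show g r = e (PresentedGroup.mk _ r) from rfl, PresentedGroup.one_of_mem hr, map_one, map_one]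
      · exact hz)
  have hπ : ∀ x, π (m x) = f (g x) := fun x => by
    have : π.comp m = f.comp g := FreeGroup.ext_hom _ _ fun i => FreeGroup.lift_apply_of
    exact DFunLike.congr_fun this x
  refine ⟨MulEquiv.ofBijective π ⟨(injective_iff_map_eq_one π).mpr fun y hy => ?_, fun q => ?_⟩⟩
  · obtain ⟨x, rfl⟩ := PresentedGroup.mk_surjective _ y
    rw [hπ] at hy
    obtain ⟨j, hj⟩ := Subgroup.mem_zpowers_iff.mp (hker hy)
    show m x = 1
    rw [← hθ, ← hj, map_zpow, hθ, show m wz = 1 from PresentedGroup.one_of_mem (by simp), one_zpow]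
  · obtain ⟨x, rfl⟩ := hf q
    obtain ⟨y, rfl⟩ := hg x
    exact ⟨m y, hπ y⟩

/-- A presentation on any generating pair, at the cost of two relations. -/
theorem HasPres.twoGen (h : HasPres H R) (a b : H) (hab : Subgroup.closure {a, b} = ⊤) :
    ∃ rels : Finset (FreeGroup (Fin 2)), rels.card ≤ R + 2 ∧
      Nonempty (PresentedGroup (↑rels : Set (FreeGroup (Fin 2))) ≃* H) := by
  classical
  obtain ⟨k, rels, hl, ⟨e⟩⟩ := h
  let g : FreeGroup (Fin k) →* H := e.toMonoidHom.comp (PresentedGroup.mk _)
  have hg : Function.Surjective g := e.surjective.comp (PresentedGroup.mk_surjective _)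
  let g2 : FreeGroup (Fin 2) →* H := FreeGroup.lift ![a, b]
  have hg2 : Function.Surjective g2 := by
    rw [← MonoidHom.range_eq_top, eq_top_iff, ← hab, Subgroup.closure_le]
    rintro x (rfl | rfl)
    · exact ⟨FreeGroup.of 0, by simp [g2]⟩
    · exact ⟨FreeGroup.of 1, by simp [g2]⟩
  choose v hv using fun i => hg2 (g (FreeGroup.of i))
  let σ : FreeGroup (Fin k) →* FreeGroup (Fin 2) := FreeGroup.lift v
  have hσ : ∀ x, g2 (σ x) = g x := fun x => by
    have : g2.comp σ = g := FreeGroup.ext_hom _ _ fun i => by simp [σ, hv]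
    exact DFunLike.congr_fun this x
  choose w hw using fun i : Fin 2 => hg (g2 (FreeGroup.of i))
  let R2 : List (FreeGroup (Fin 2)) :=
    rels.map σ ++ [(FreeGroup.of 0)⁻¹ * σ (w 0), (FreeGroup.of 1)⁻¹ * σ (w 1)]
  refine ⟨R2.toFinset, (List.toFinset_card_le _).trans (by simp [R2]; omega), ?_⟩
  let m : FreeGroup (Fin 2) →* PresentedGroup (↑R2.toFinset : Set (FreeGroup (Fin 2))) := PresentedGroup.mk _
  have hm : ∀ r ∈ R2, m r = 1 := fun r hr => PresentedGroup.one_of_mem (by simpa using hr)
  let θ₀ : PresentedGroup {r | r ∈ rels} →* PresentedGroup (↑R2.toFinset : Set (FreeGroup (Fin 2))) :=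
    PresentedGroup.toGroup (f := fun i => m (σ (FreeGroup.of i))) (fun r hr => by
      have e' : FreeGroup.lift (fun i => m (σ (FreeGroup.of i))) = m.comp σ := FreeGroup.ext_hom _ _ fun i => by simp
      rw [e']
      exact hm _ (by simp only [R2, List.mem_append, List.mem_map]; exact Or.inl ⟨r, hr, rfl⟩))
  let θ : H →* PresentedGroup (↑R2.toFinset : Set (FreeGroup (Fin 2))) := θ₀.comp e.symm.toMonoidHom
  have hθ : ∀ x, θ (g x) = m (σ x) := fun x => by
    have : θ₀.comp (PresentedGroup.mk _) = m.comp σ := FreeGroup.ext_hom _ _ fun i => FreeGroup.lift_apply_of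
    show θ₀ (e.symm (e (PresentedGroup.mk _ x))) = _
    rw [MulEquiv.symm_apply_apply]
    exact DFunLike.congr_fun this x
  let π : PresentedGroup (↑R2.toFinset : Set (FreeGroup (Fin 2))) →* H :=
    PresentedGroup.toGroup (f := fun i => g2 (FreeGroup.of i)) (fun r hr => by
      have e' : FreeGroup.lift (fun i => g2 (FreeGroup.of i)) = g2 := FreeGroup.ext_hom _ _ fun i => by simp
      rw [e']
      simp only [List.coe_toFinset, Set.mem_setOf_eq, R2, List.mem_append, List.mem_map, List.mem_cons,
        List.not_mem_nil, or_false] at hr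
      rcases hr with ⟨r, hr, rfl⟩ | rfl | rfl
      · rw [hσ, show g r = e (PresentedGroup.mk _ r) from rfl, PresentedGroup.one_of_mem hr, map_one]
      all_goals rw [map_mul, map_inv, hσ, hw, inv_mul_cancel])
  have hθπ : θ.comp π = MonoidHom.id _ := by
    refine PresentedGroup.ext fun i => ?_
    show θ (π (PresentedGroup.of i)) = _
    rw [PresentedGroup.toGroup.of, ← hw i, hθ]
    have h1 : m ((FreeGroup.of i)⁻¹ * σ (w i)) = 1 := hm _ (by
      simp only [R2, List.mem_append, List.mem_cons, List.not_mem_nil, or_false]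
      fin_cases i
      · exact Or.inr (Or.inl rfl)
      · exact Or.inr (Or.inr rfl))
    rw [map_mul, map_inv, inv_mul_eq_one] at h1
    exact h1.symm
  have hπ : ∀ x, π (m x) = g2 x := fun x => by
    have : π.comp m = g2 := FreeGroup.ext_hom _ _ fun i => FreeGroup.lift_apply_of
    exact DFunLike.congr_fun this x
  refine ⟨MulEquiv.ofBijective π ⟨Function.LeftInverse.injective (g := θ) (fun z => DFunLike.congr_fun hθπ z), fun q => ?_⟩⟩
  obtain ⟨x, rfl⟩ := hg2 q
  exact ⟨m x, hπ x⟩

end CfsgLib.FewRels
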