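import Cfsg.Agent.FewRels.Basic
import Cfsg.Agent.FewRels.Carmichael
set_option autoImplicit false

/-!
Gluing presentations of two overlapping alternating groups.
-/

namespace CfsgLib.FewRels

open Equiv
open Monoid (Coprod)

variable {α : Type*} [Fintype α] [DecidableEq α]

/-- A permutation moving `O` cyclically and preserving `{a, b}`. -/
theorem exists_sigma {a b : α} (hab : a ≠ b) (O : Finset α) (ha : a ∉ O) (hb : b ∉ O) :
    ∃ σ : Perm α, σ ∈ alternatingGroup α ∧ (∀ x, x ∉ O → x ≠ a → x ≠ b → σ x = x) ∧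
      (σ a = a ∧ σ b = b ∨ σ a = b ∧ σ b = a) ∧ (∀ i ∈ O, σ i ∈ O) ∧ ∀ i ∈ O, ∀ j ∈ O, ∃ r : ℕ, (σ ^ r) i = j := by
  set l := O.toList with hl
  have hnd : l.Nodup := O.nodup_toList
  set c := l.formPerm with hc
  have hfix : ∀ x, x ∉ O → c x = x := fun x hx =>
    List.formPerm_apply_of_notMem (by rwa [hl, Finset.mem_toList])
  have hmem : ∀ i ∈ O, c i ∈ O := fun i hi => by
    by_contra h
    have h1 := hfix _ h
    have := c.injective h1
    exact h (by rw [this]; exact hi)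
  have htrans : ∀ i ∈ O, ∀ j ∈ O, ∃ r : ℕ, (c ^ r) i = j := by
    intro i hi j hj
    obtain ⟨n, hn, rfl⟩ := List.getElem_of_mem (show i ∈ l by rwa [hl, Finset.mem_toList])
    obtain ⟨k, hk, rfl⟩ := List.getElem_of_mem (show j ∈ l by rwa [hl, Finset.mem_toList])
    refine ⟨k + l.length - n, ?_⟩
    rw [List.formPerm_pow_apply_getElem l hnd]
    simp only [show n + (k + l.length - n) = k + l.length by omega, Nat.add_mod_right, Nat.mod_eq_of_lt hk]
  rcases Int.units_eq_one_or (Perm.sign c) with hs | hs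
  · exact ⟨c, Perm.mem_alternatingGroup.mpr hs, fun x hx _ _ => hfix x hx, Or.inl ⟨hfix a ha, hfix b hb⟩, hmem, htrans⟩
  · refine ⟨swap a b * c, ?_, fun x hx hxa hxb => ?_, Or.inr ⟨?_, ?_⟩, fun i hi => ?_, ?_⟩
    · rw [Perm.mem_alternatingGroup, map_mul, hs, Perm.sign_swap hab]; rfl
    · rw [Perm.mul_apply, hfix x hx, swap_apply_of_ne_of_ne hxa hxb]
    · rw [Perm.mul_apply, hfix a ha, swap_apply_left]
    · rw [Perm.mul_apply, hfix b hb, swap_apply_right]
    · rw [Perm.mul_apply, swap_apply_of_ne_of_ne (fun e => ha (by rw [← e]; exact hmem i hi)) (fun e => hb (by rw [← e]; exact hmem i hi))]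
      exact hmem i hi
    · have hp : ∀ (r : ℕ), ∀ i ∈ O, ((swap a b * c) ^ r) i = (c ^ r) i ∧ (c ^ r) i ∈ O := by
        intro r
        induction r with
        | zero => intro i hi; simpa using hi
        | succ r ih =>
          intro i hi
          obtain ⟨h1, h2⟩ := ih i hi
          have h3 := hmem _ h2
          rw [pow_succ', pow_succ', Perm.mul_apply, Perm.mul_apply, h1, Perm.mul_apply,
            swap_apply_of_ne_of_ne (fun e => ha (by rw [← e]; exact h3)) (fun e => hb (by rw [← e]; exact h3))]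
          exact ⟨rfl, h3⟩
      intro i hi j hj
      obtain ⟨r, hr⟩ := htrans i hi j hj
      exact ⟨r, by rw [(hp r i hi).1, hr]⟩

/-- An even permutation supported inside `P` comes from `Alt(P)`. -/
theorem exists_restrict (P : Finset α) (σ : Perm α) (hσ : σ ∈ alternatingGroup α)
    (hfix : ∀ x, x ∉ P → σ x = x) :
    ∃ s : alternatingGroup P, (alternatingGroup.ofSubtype P s : Perm α) = σ := by
  have h2 : ∀ x, σ x ≠ x → x ∈ P := fun x hx => by_contra fun h => hx (hfix x h)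
  have h1 : ∀ x, σ x ∈ P ↔ x ∈ P := fun x => by
    constructor
    · intro h
      by_contra hx
      rw [hfix x hx] at h
      exact hx h
    · intro h
      by_contra hx
      have := σ.injective (hfix _ hx)
      rw [this] at hx
      exact hx h
  have e := Perm.ofSubtype_subtypePerm h1 h2
  refine ⟨⟨σ.subtypePerm h1, ?_⟩, e⟩
  rw [Perm.mem_alternatingGroup, ← Perm.sign_ofSubtype, e]
  exact Perm.mem_alternatingGroup.mp hσ

/-- `±1` as an exponent. -/
theorem sq_one_zpow {G : Type*} [Group G] {x y : G} (h : (x * y) ^ 2 = 1) {e : ℤ} (he : e = 1 ∨ e = -1) :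
    (x ^ e * y ^ e) ^ 2 = 1 := by
  rcases he with rfl | rfl
  · simpa using h
  · rw [zpow_neg_one, zpow_neg_one, ← mul_inv_rev, inv_pow, inv_eq_one]
    calc (y * x) ^ 2 = x⁻¹ * (x * y) ^ 2 * x := by rw [pow_two, pow_two]; group
      _ = 1 := by rw [h]; group

/-- Gluing two alternating groups along their overlap. -/
theorem alt_glue {a b : α} (hab : a ≠ b) (P Q : Finset α) (haP : a ∈ P) (hbP : b ∈ P) (haQ : a ∈ Q) (hbQ : b ∈ Q)
    (hcov : ∀ x, x ∈ P ∨ x ∈ Q) {i0 j0 : α} (hi0 : i0 ∈ P) (hi0' : i0 ∉ Q) (hj0 : j0 ∈ Q) (hj0' : j0 ∉ P) {RA RB : ℕ}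
    (hA : HasPres (alternatingGroup P) RA) (hB : HasPres (alternatingGroup Q) RB) :
    HasPres (alternatingGroup α) (RA + RB + 6) := by
  classical
  set ψA := alternatingGroup.ofSubtype P with hψA
  set ψB := alternatingGroup.ofSubtype Q with hψB
  have injA : Function.Injective ψA := alternatingGroup.ofSubtype_injective
  have injB : Function.Injective ψB := alternatingGroup.ofSubtype_injective
  -- three-cycles in both groups
  let ok : Finset α → α → Prop := fun S i => i ∈ S ∧ a ≠ i ∧ b ≠ i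
  have exA : ∀ i, ok P i → ∃ s, (ψA s : Perm α) = cyc a b i := fun i hi =>
    exists_restrict P _ (cyc_mem hi.2.1 hab) fun x hx => by
      have h1 : x ≠ a := fun e => hx (e ▸ haP)
      have h2 : x ≠ b := fun e => hx (e ▸ hbP)
      have h3 : x ≠ i := fun e => hx (e ▸ hi.1)
      rw [cyc, Perm.mul_apply, swap_apply_of_ne_of_ne h1 h3, swap_apply_of_ne_of_ne h1 h2]
  have exB : ∀ i, ok Q i → ∃ s, (ψB s : Perm α) = cyc a b i := fun i hi =>
    exists_restrict Q _ (cyc_mem hi.2.1 hab) fun x hx => by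
      have h1 : x ≠ a := fun e => hx (e ▸ haQ)
      have h2 : x ≠ b := fun e => hx (e ▸ hbQ)
      have h3 : x ≠ i := fun e => hx (e ▸ hi.1)
      rw [cyc, Perm.mul_apply, swap_apply_of_ne_of_ne h1 h3, swap_apply_of_ne_of_ne h1 h2]
  let cA : α → alternatingGroup P := fun i => if h : ok P i then Classical.choose (exA i h) else 1
  let cB : α → alternatingGroup Q := fun i => if h : ok Q i then Classical.choose (exB i h) else 1
  have hcA : ∀ i, ok P i → (ψA (cA i) : Perm α) = cyc a b i := fun i hi => by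
    simp only [cA, dif_pos hi]; exact Classical.choose_spec (exA i hi)
  have hcB : ∀ i, ok Q i → (ψB (cB i) : Perm α) = cyc a b i := fun i hi => by
    simp only [cB, dif_pos hi]; exact Classical.choose_spec (exB i hi)
  -- how a permutation preserving `{a, b}` acts
  have hact : ∀ σ : Perm α, (σ a = a ∧ σ b = b ∨ σ a = b ∧ σ b = a) →
      ∃ e : ℤ, (e = 1 ∨ e = -1) ∧ ∀ i, a ≠ i → b ≠ i →
        (a ≠ σ i ∧ b ≠ σ i ∧ σ * cyc a b i * σ⁻¹ = cyc a b (σ i) ^ e) := by
    rintro σ (⟨h1, h2⟩ | ⟨h1, h2⟩)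
    · refine ⟨1, Or.inl rfl, fun i hai hbi => ⟨fun e => hai ?_, fun e => hbi ?_, ?_⟩⟩
      · exact σ.injective (h1.trans e)
      · exact σ.injective (h2.trans e)
      · rw [cyc_conj, h1, h2, zpow_one]
    · refine ⟨-1, Or.inr rfl, fun i hai hbi => ?_⟩
      have n1 : a ≠ σ i := fun e => hbi (σ.injective (h2.trans e))
      have n2 : b ≠ σ i := fun e => hai (σ.injective (h1.trans e))
      exact ⟨n1, n2, by rw [cyc_conj, h1, h2, zpow_neg_one, cyc_swap hab n1 n2]⟩
  set O := (P ∩ Q).filter (fun i => a ≠ i ∧ b ≠ i) with hO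
  obtain ⟨σO, hσO, hfO, habO, hmO, htO⟩ := exists_sigma hab O (by simp [hO]) (by simp [hO])
  obtain ⟨sOA, hsOA⟩ := exists_restrict P σO hσO fun x hx => by
    refine hfO x (fun h => hx ?_) (fun e => hx (e ▸ haP)) (fun e => hx (e ▸ hbP))
    simp only [hO, Finset.mem_filter, Finset.mem_inter] at h
    exact h.1.1
  obtain ⟨sOB, hsOB⟩ := exists_restrict Q σO hσO fun x hx => by
    refine hfO x (fun h => hx ?_) (fun e => hx (e ▸ haQ)) (fun e => hx (e ▸ hbQ))
    simp only [hO, Finset.mem_filter, Finset.mem_inter] at h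
    exact h.1.2
  set SA := P \ Q with hSA
  set SB := Q \ P with hSB
  obtain ⟨σA, hσA, hfA, habA, hmA, htA⟩ := exists_sigma hab SA (by simp [hSA, haQ]) (by simp [hSA, hbQ])
  obtain ⟨σB, hσB, hfB, habB, hmB, htB⟩ := exists_sigma hab SB (by simp [hSB, haP]) (by simp [hSB, hbP])
  obtain ⟨sA, hsA⟩ := exists_restrict P σA hσA fun x hx =>
    hfA x (fun h => hx (Finset.mem_sdiff.mp h).1) (fun e => hx (e ▸ haP)) (fun e => hx (e ▸ hbP))
  obtain ⟨sB, hsB⟩ := exists_restrict Q σB hσB fun x hx =>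
    hfB x (fun h => hx (Finset.mem_sdiff.mp h).1) (fun e => hx (e ▸ haQ)) (fun e => hx (e ▸ hbQ))
  obtain ⟨eO, heO, hactO⟩ := hact σO habO
  obtain ⟨eA, heA, hactA⟩ := hact σA habA
  obtain ⟨eB, heB, hactB⟩ := hact σB habB
  have hokA : ∀ i ∈ SA, ok P i := fun i hi => by
    obtain ⟨h1, h2⟩ := Finset.mem_sdiff.mp hi
    exact ⟨h1, fun e => h2 (e ▸ haQ), fun e => h2 (e ▸ hbQ)⟩
  have hokB : ∀ i ∈ SB, ok Q i := fun i hi => by
    obtain ⟨h1, h2⟩ := Finset.mem_sdiff.mp hi
    exact ⟨h1, fun e => h2 (e ▸ haP), fun e => h2 (e ▸ hbP)⟩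
  have hokO : ∀ i ∈ O, ok P i ∧ ok Q i := fun i hi => by
    simp only [hO, Finset.mem_filter, Finset.mem_inter] at hi
    exact ⟨⟨hi.1.1, hi.2⟩, ⟨hi.1.2, hi.2⟩⟩
  -- fixed points
  have hfixB : ∀ j ∈ SB, σA j = j := fun j hj =>
    hfA j (fun h => (Finset.mem_sdiff.mp hj).2 (Finset.mem_sdiff.mp h).1) (Ne.symm (hokB j hj).2.1) (Ne.symm (hokB j hj).2.2)
  have hfixA : ∀ i ∈ SA, σB i = i := fun i hi =>
    hfB i (fun h => (Finset.mem_sdiff.mp hi).2 (Finset.mem_sdiff.mp h).1) (Ne.symm (hokA i hi).2.1) (Ne.symm (hokA i hi).2.2)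
  have hi0S : i0 ∈ SA := Finset.mem_sdiff.mpr ⟨hi0, hi0'⟩
  have hj0S : j0 ∈ SB := Finset.mem_sdiff.mpr ⟨hj0, hj0'⟩
  have hAB : σA * σB = σB * σA := by
    refine Equiv.ext fun x => ?_
    simp only [Perm.mul_apply]
    by_cases hxA : x ∈ SA
    · rw [hfixA x hxA, hfixA _ (hmA x hxA)]
    by_cases hxB : x ∈ SB
    · rw [hfixB x hxB, hfixB _ (hmB x hxB)]
    rcases eq_or_ne x a with rfl | hxa
    · rcases habA with ⟨h1, h2⟩ | ⟨h1, h2⟩ <;> rcases habB with ⟨h3, h4⟩ | ⟨h3, h4⟩ <;> simp [h1, h2, h3, h4]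
    rcases eq_or_ne x b with rfl | hxb
    · rcases habA with ⟨h1, h2⟩ | ⟨h1, h2⟩ <;> rcases habB with ⟨h3, h4⟩ | ⟨h3, h4⟩ <;> simp [h1, h2, h3, h4]
    rw [hfA x hxA hxa hxb, hfB x hxB hxa hxb, hfA x hxA hxa hxb]
  let X : α → Coprod (alternatingGroup P) (alternatingGroup Q) := fun i => Coprod.inl (cA i)
  let Y : α → Coprod (alternatingGroup P) (alternatingGroup Q) := fun i => Coprod.inr (cB i)
  let ov : List (Coprod (alternatingGroup P) (alternatingGroup Q)) :=
    if h : O.Nonempty then [X h.choose * (Y h.choose)⁻¹, Coprod.inl sOA * (Coprod.inr sOB)⁻¹] else []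
  let cross : List (Coprod (alternatingGroup P) (alternatingGroup Q)) :=
    [(X i0 * Y j0) ^ 2, Coprod.inl sA * Y j0 * (Coprod.inl sA)⁻¹ * (Y j0 ^ eA)⁻¹,
      Coprod.inr sB * X i0 * (Coprod.inr sB)⁻¹ * (X i0 ^ eB)⁻¹,
      Coprod.inl sA * Coprod.inr sB * (Coprod.inr sB * Coprod.inl sA)⁻¹]
  have hlen : (ov ++ cross).length ≤ 6 := by
    simp only [ov, cross]
    split_ifs <;> simp
  refine (HasPres.amalgam hA hB ψA ψB ?_ (ov ++ cross) ?_ ?_).mono (by omega)
  · rw [eq_top_iff]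
    intro g _
    have hg : g.1 ∈ Subgroup.map (alternatingGroup α).subtype (ψA.range ⊔ ψB.range) := by
      have := (closure_cyc hab).ge g.2
      refine (Subgroup.closure_le _).mpr ?_ this
      rintro _ ⟨i, hai, hbi, rfl⟩
      rcases hcov i with h | h
      · exact ⟨ψA (cA i), Subgroup.mem_sup_left ⟨_, rfl⟩, hcA i ⟨h, hai, hbi⟩⟩
      · exact ⟨ψB (cB i), Subgroup.mem_sup_right ⟨_, rfl⟩, hcB i ⟨h, hai, hbi⟩⟩
    obtain ⟨g', hg', e⟩ := hg
    rwa [← show g' = g from Subtype.ext e]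
  · intro r hr
    simp only [List.mem_append, cross, List.mem_cons, List.not_mem_nil, or_false] at hr
    rcases hr with hr | rfl | rfl | rfl | rfl
    · simp only [ov] at hr
      split_ifs at hr with h
      · simp only [List.mem_cons, List.not_mem_nil, or_false] at hr
        obtain ⟨h1, h2⟩ := hokO _ h.choose_spec
        rcases hr with rfl | rfl
        · apply Subtype.ext
          simp [X, Y, hcA _ h1, hcB _ h2]
        · apply Subtype.ext
          simp [hψA, hψB, hsOA, hsOB]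
      · simp at hr
    · apply Subtype.ext
      have := cyc_rel hab (hokA i0 hi0S).2.1 (hokA i0 hi0S).2.2 (hokB j0 hj0S).2.1 (hokB j0 hj0S).2.2
        (fun e => hi0' (e ▸ hj0))
      simpa [X, Y, hcA _ (hokA i0 hi0S), hcB _ (hokB j0 hj0S)] using this
    · apply Subtype.ext
      have := (hactA j0 (hokB j0 hj0S).2.1 (hokB j0 hj0S).2.2).2.2
      rw [hfixB j0 hj0S] at this
      simp [Y, hcB _ (hokB j0 hj0S), hψA, hsA, map_zpow, this]
    · apply Subtype.ext
      have := (hactB i0 (hokA i0 hi0S).2.1 (hokA i0 hi0S).2.2).2.2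
      rw [hfixA i0 hi0S] at this
      simp [X, hcA _ (hokA i0 hi0S), hψB, hsB, map_zpow, this]
    · apply Subtype.ext
      simp only [map_mul, map_inv, Coprod.lift_apply_inl, Coprod.lift_apply_inr, Subgroup.coe_mul, Subgroup.coe_inv,
        Subgroup.coe_one, hψA, hψB, hsA, hsB, hAB, mul_inv_cancel]
  intro G _ φA φB π hπA hπB hgen hrel
  have hπA' : ∀ s, π (φA s) = ψA s := DFunLike.congr_fun hπA
  have hπB' : ∀ s, π (φB s) = ψB s := DFunLike.congr_fun hπB
  -- conjugation inside each group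
  have conjA : ∀ (s : alternatingGroup P) (σ : Perm α) (e : ℤ), (ψA s : Perm α) = σ → ∀ i j, ok P i → ok P j →
      σ * cyc a b i * σ⁻¹ = cyc a b j ^ e → φA s * φA (cA i) * (φA s)⁻¹ = φA (cA j) ^ e := by
    intro s σ e hs i j hi hj h
    rw [← map_mul, ← map_inv, ← map_mul, ← map_zpow]
    congr 1
    refine injA (Subtype.ext ?_)
    simpa [map_zpow, hs, hcA i hi, hcA j hj] using h
  have conjB : ∀ (s : alternatingGroup Q) (σ : Perm α) (e : ℤ), (ψB s : Perm α) = σ → ∀ i j, ok Q i → ok Q j →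
      σ * cyc a b i * σ⁻¹ = cyc a b j ^ e → φB s * φB (cB i) * (φB s)⁻¹ = φB (cB j) ^ e := by
    intro s σ e hs i j hi hj h
    rw [← map_mul, ← map_inv, ← map_mul, ← map_zpow]
    congr 1
    refine injB (Subtype.ext ?_)
    simpa [map_zpow, hs, hcB i hi, hcB j hj] using h
  have unflip : ∀ {e : ℤ}, (e = 1 ∨ e = -1) → ∀ z : G, (z ^ e) ^ e = z := by
    intro e he z
    rcases he with rfl | rfl <;> simp
  -- agreement on the overlap
  have agree : ∀ i ∈ O, φA (cA i) = φB (cB i) := by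
    intro i hi
    have hne : O.Nonempty := ⟨i, hi⟩
    have hov : ∀ r ∈ ov, Coprod.lift φA φB r = 1 := fun r hr => hrel r (List.mem_append_left _ hr)
    simp only [ov, dif_pos hne, List.mem_cons, List.not_mem_nil, or_false] at hov
    have o1 := hov _ (Or.inl rfl)
    have o2 := hov _ (Or.inr rfl)
    simp only [X, Y, map_mul, map_inv, Coprod.lift_apply_inl, Coprod.lift_apply_inr, mul_inv_eq_one] at o1 o2
    obtain ⟨r, rfl⟩ := htO _ hne.choose_spec i hi
    clear hi
    suffices h : (σO ^ r) hne.choose ∈ O ∧ φA (cA ((σO ^ r) hne.choose)) = φB (cB ((σO ^ r) hne.choose)) from h.2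
    induction r with
    | zero => exact ⟨hne.choose_spec, by simpa using o1⟩
    | succ r ih =>
      obtain ⟨hm, he⟩ := ih
      have hm' := hmO _ hm
      rw [pow_succ', Perm.mul_apply]
      refine ⟨hm', ?_⟩
      set j := (σO ^ r) hne.choose
      obtain ⟨h1, h2⟩ := hokO j hm
      have key := (hactO j h1.2.1 h1.2.2).2.2
      have a1 := conjA sOA σO eO hsOA j (σO j) h1 (hokO _ hm').1 key
      have b1 := conjB sOB σO eO hsOB j (σO j) h2 (hokO _ hm').2 key
      rw [o2, he, b1] at a1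
      have := congrArg (fun z => z ^ eO) a1
      simp only [unflip heO] at this
      exact this.symm
  -- pairs across
  have hcr : ∀ r ∈ cross, Coprod.lift φA φB r = 1 := fun r hr => hrel r (List.mem_append_right _ hr)
  simp only [cross, List.mem_cons, List.not_mem_nil, or_false] at hcr
  have c1 := hcr _ (Or.inl rfl)
  have c2 := hcr _ (Or.inr (Or.inl rfl))
  have c3 := hcr _ (Or.inr (Or.inr (Or.inl rfl)))
  have c4 := hcr _ (Or.inr (Or.inr (Or.inr rfl)))
  simp only [X, Y, map_mul, map_inv, map_pow, map_zpow, Coprod.lift_apply_inl, Coprod.lift_apply_inr,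
    mul_inv_eq_one] at c1 c2 c3 c4
  have stepA : ∀ i ∈ SA, φA sA * φA (cA i) * (φA sA)⁻¹ = φA (cA (σA i)) ^ eA := fun i hi =>
    conjA sA σA eA hsA i (σA i) (hokA i hi) (hokA _ (hmA i hi)) (hactA i (hokA i hi).2.1 (hokA i hi).2.2).2.2
  have orbA : ∀ i ∈ SA, φB sB * φA (cA i) * (φB sB)⁻¹ = φA (cA i) ^ eB ∧ (φA (cA i) * φB (cB j0)) ^ 2 = 1 := by
    intro i hi
    obtain ⟨r, rfl⟩ := htA i0 hi0S i hi
    clear hi
    suffices h : (σA ^ r) i0 ∈ SA ∧ φB sB * φA (cA ((σA ^ r) i0)) * (φB sB)⁻¹ = φA (cA ((σA ^ r) i0)) ^ eB ∧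
        (φA (cA ((σA ^ r) i0)) * φB (cB j0)) ^ 2 = 1 from h.2
    induction r with
    | zero => exact ⟨hi0S, c3, c1⟩
    | succ r ih =>
      obtain ⟨hm, h3, h1⟩ := ih
      have hm' := hmA _ hm
      rw [pow_succ', Perm.mul_apply]
      set j := (σA ^ r) i0
      have e1 := stepA j hm
      have e2 : φA (cA (σA j)) = (φA sA * φA (cA j) * (φA sA)⁻¹) ^ eA := by rw [e1, unflip heA]
      refine ⟨hm', ?_, ?_⟩
      · rw [e2]
        have hc : φB sB * φA sA = φA sA * φB sB := c4.symm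
        rw [← conj_zpow, show φB sB * (φA sA * φA (cA j) * (φA sA)⁻¹) * (φB sB)⁻¹ =
          (φB sB * φA sA) * φA (cA j) * (φB sB * φA sA)⁻¹ by group, hc,
          show φA sA * φB sB * φA (cA j) * (φA sA * φB sB)⁻¹ =
            φA sA * (φB sB * φA (cA j) * (φB sB)⁻¹) * (φA sA)⁻¹ by group, h3, ← conj_zpow, ← zpow_mul, ← zpow_mul,
          mul_comm]
      · have h := congrArg (fun z => φA sA * z * (φA sA)⁻¹) h1
        simp only [mul_one, mul_inv_cancel] at h
        rw [← conj_pow, show φA sA * (φA (cA j) * φB (cB j0)) * (φA sA)⁻¹ =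
          (φA sA * φA (cA j) * (φA sA)⁻¹) * (φA sA * φB (cB j0) * (φA sA)⁻¹) by group, e1, c2] at h
        have := sq_one_zpow h heA
        rwa [unflip heA, unflip heA] at this
  have pairs : ∀ i ∈ SA, ∀ j ∈ SB, (φA (cA i) * φB (cB j)) ^ 2 = 1 := by
    intro i hi j hj
    obtain ⟨r, rfl⟩ := htB j0 hj0S j hj
    clear hj
    suffices h : (σB ^ r) j0 ∈ SB ∧ (φA (cA i) * φB (cB ((σB ^ r) j0))) ^ 2 = 1 from h.2
    induction r with
    | zero => exact ⟨hj0S, (orbA i hi).2⟩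
    | succ r ih =>
      obtain ⟨hm, h1⟩ := ih
      have hm' := hmB _ hm
      rw [pow_succ', Perm.mul_apply]
      set j := (σB ^ r) j0
      refine ⟨hm', ?_⟩
      have e1 := conjB sB σB eB hsB j (σB j) (hokB j hm) (hokB _ hm') (hactB j (hokB j hm).2.1 (hokB j hm).2.2).2.2
      have h := congrArg (fun z => φB sB * z * (φB sB)⁻¹) h1
      simp only [mul_one, mul_inv_cancel] at h
      rw [← conj_pow, show φB sB * (φA (cA i) * φB (cB j)) * (φB sB)⁻¹ =
        (φB sB * φA (cA i) * (φB sB)⁻¹) * (φB sB * φB (cB j) * (φB sB)⁻¹) by group, e1, (orbA i hi).1] at h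
      have := sq_one_zpow h heB
      rwa [unflip heB, unflip heB] at this
  let x : {i : α // a ≠ i ∧ b ≠ i} → G := fun i => if i.1 ∈ P then φA (cA i.1) else φB (cB i.1)
  have hxA : ∀ i : {i : α // a ≠ i ∧ b ≠ i}, i.1 ∈ P → x i = φA (cA i.1) := fun i hi => if_pos hi
  have hxB : ∀ i : {i : α // a ≠ i ∧ b ≠ i}, i.1 ∈ Q → x i = φB (cB i.1) := fun i hi => by
    by_cases hP : i.1 ∈ P
    · rw [hxA i hP]
      exact agree _ (by simp only [hO, Finset.mem_filter, Finset.mem_inter]; exact ⟨⟨hP, hi⟩, i.2⟩)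
    · exact if_neg hP
  refine injective_of_carmichael hab π x ?_ ?_ ?_ ?_
  · intro i
    rcases hcov i.1 with h | h
    · rw [hxA i h, hπA']; exact hcA _ ⟨h, i.2⟩
    · rw [hxB i h, hπB']; exact hcB _ ⟨h, i.2⟩
  · intro i
    rcases hcov i.1 with h | h
    · rw [hxA i h, ← map_pow, show cA i.1 ^ 3 = 1 from injA (Subtype.ext (by
        simpa [hcA _ ⟨h, i.2⟩] using cyc_pow_three hab i.2.1 i.2.2)), map_one]
    · rw [hxB i h, ← map_pow, show cB i.1 ^ 3 = 1 from injB (Subtype.ext (by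
        simpa [hcB _ ⟨h, i.2⟩] using cyc_pow_three hab i.2.1 i.2.2)), map_one]
  · intro i j hij
    have hne : i.1 ≠ j.1 := fun e => hij (Subtype.ext e)
    have hrel := cyc_rel hab i.2.1 i.2.2 j.2.1 j.2.2 hne
    by_cases hi : i.1 ∈ P
    · by_cases hj : j.1 ∈ P
      · rw [hxA i hi, hxA j hj, ← map_mul, ← map_pow, show (cA i.1 * cA j.1) ^ 2 = 1 from injA (Subtype.ext (by
          simpa [hcA _ ⟨hi, i.2⟩, hcA _ ⟨hj, j.2⟩] using hrel)), map_one]
      · have hjQ := (hcov j.1).resolve_left hj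
        by_cases hiQ : i.1 ∈ Q
        · rw [hxB i hiQ, hxB j hjQ, ← map_mul, ← map_pow, show (cB i.1 * cB j.1) ^ 2 = 1 from injB (Subtype.ext (by
            simpa [hcB _ ⟨hiQ, i.2⟩, hcB _ ⟨hjQ, j.2⟩] using hrel)), map_one]
        · rw [hxA i hi, hxB j hjQ]
          exact pairs _ (Finset.mem_sdiff.mpr ⟨hi, hiQ⟩) _ (Finset.mem_sdiff.mpr ⟨hjQ, hj⟩)
    · have hiQ := (hcov i.1).resolve_left hi
      by_cases hjQ : j.1 ∈ Q
      · rw [hxB i hiQ, hxB j hjQ, ← map_mul, ← map_pow, show (cB i.1 * cB j.1) ^ 2 = 1 from injB (Subtype.ext (by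
          simpa [hcB _ ⟨hiQ, i.2⟩, hcB _ ⟨hjQ, j.2⟩] using hrel)), map_one]
      · have hj := (hcov j.1).resolve_right hjQ
        rw [hxB i hiQ, hxA j hj]
        have h := pairs _ (Finset.mem_sdiff.mpr ⟨hj, hjQ⟩) _ (Finset.mem_sdiff.mpr ⟨hiQ, hi⟩)
        calc (φB (cB i.1) * φA (cA j.1)) ^ 2 = (φA (cA j.1))⁻¹ * (φA (cA j.1) * φB (cB i.1)) ^ 2 * φA (cA j.1) := by
              rw [pow_two, pow_two]; group
          _ = 1 := by rw [h]; group
  · rw [eq_top_iff, ← hgen, sup_le_iff]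
    have main : ∀ (S : Finset α) (φ : alternatingGroup S →* G) (c : α → alternatingGroup S) (hinj : Function.Injective (alternatingGroup.ofSubtype S)),
        a ∈ S → b ∈ S → (∀ i, ok S i → (alternatingGroup.ofSubtype S (c i) : Perm α) = cyc a b i) →
        (∀ i : {i : α // a ≠ i ∧ b ≠ i}, i.1 ∈ S → x i = φ (c i.1)) → φ.range ≤ Subgroup.closure (Set.range x) := by
      intro S φ c hinj haS hbS hc hx
      rintro _ ⟨s, rfl⟩
      have hs : s.1 ∈ Subgroup.closure {g : Perm S | ∃ i, (⟨a, haS⟩ : S) ≠ i ∧ ⟨b, hbS⟩ ≠ i ∧ g = cyc ⟨a, haS⟩ ⟨b, hbS⟩ i} := by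
        rw [closure_cyc (fun e => hab (congrArg Subtype.val e))]; exact s.2
      have : s.1 ∈ Subgroup.map (alternatingGroup S).subtype ((Subgroup.closure (Set.range x)).comap φ) := by
        refine (Subgroup.closure_le _).mpr ?_ hs
        rintro _ ⟨i, hai, hbi, rfl⟩
        have h1 : a ≠ i.1 := fun e => hai (Subtype.ext e)
        have h2 : b ≠ i.1 := fun e => hbi (Subtype.ext e)
        refine ⟨c i.1, ?_, ?_⟩
        · rw [SetLike.mem_coe, Subgroup.mem_comap]
          rw [← hx ⟨i.1, h1, h2⟩ i.2]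
          exact Subgroup.subset_closure ⟨_, rfl⟩
        · have e1 : (⟨cyc ⟨a, haS⟩ ⟨b, hbS⟩ i, cyc_mem hai (fun e => hab (congrArg Subtype.val e))⟩ : alternatingGroup S) = c i.1 := by
            refine hinj (Subtype.ext ?_)
            rw [hc i.1 ⟨i.2, h1, h2⟩]
            show Perm.ofSubtype (cyc (⟨a, haS⟩ : S) ⟨b, hbS⟩ i) = _
            simp only [cyc, map_mul, Perm.ofSubtype_swap_eq]
          exact congrArg Subtype.val e1.symm
      obtain ⟨s', hs', e⟩ := this
      rw [← show s' = s from Subtype.ext e]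
      exact hs'
    exact ⟨main P φA cA injA haP hbP hcA hxA, main Q φB cB injB haQ hbQ hcB hxB⟩

end CfsgLib.FewRels
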