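import Cfsg.Agent.FewRels.Alt
import Cfsg.Agent.SL3Pres.Rels
set_option autoImplicit false

/-!
Special linear groups of large rank with boundedly many relations.
-/

namespace CfsgLib.FewRels

open Equiv
open Monoid (Coprod)
open CfsgLib.SL3Pres

/-- Any injective tuple can be moved to any other. -/
theorem exists_perm_tuple {α : Type*} [DecidableEq α] : ∀ {m : ℕ} (f f' : Fin m → α), Function.Injective f →
    Function.Injective f' → ∃ g : Perm α, ∀ i, g (f i) = f' i := by
  intro m
  induction m with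
  | zero => exact fun _ _ _ _ => ⟨1, fun i => i.elim0⟩
  | succ m ih =>
    intro f f' hf hf'
    obtain ⟨g, hg⟩ := ih (f ∘ Fin.castSucc) (f' ∘ Fin.castSucc) (hf.comp (Fin.castSucc_injective m))
      (hf'.comp (Fin.castSucc_injective m))
    refine ⟨swap (g (f (Fin.last m))) (f' (Fin.last m)) * g, fun i => ?_⟩
    rcases Fin.eq_castSucc_or_eq_last i with ⟨j, rfl⟩ | rfl
    · have e := hg j
      simp only [Function.comp_apply] at e
      rw [Perm.mul_apply, e, swap_apply_of_ne_of_ne]
      · intro h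
        rw [← e] at h
        exact (Fin.castSucc_lt_last j).ne (hf (g.injective h))
      · intro h
        exact (Fin.castSucc_lt_last j).ne (hf' h)
    · rw [Perm.mul_apply, swap_apply_left]

/-- Even permutation, up to exchanging two of the arguments. -/
theorem exists_even_tuple {α : Type*} [DecidableEq α] [Fintype α] {m : ℕ} (f f' : Fin m → α) (hf : Function.Injective f)
    (hf' : Function.Injective f') (x y : Fin m) (hxy : x ≠ y) :
    ∃ g ∈ alternatingGroup α, (∀ i, g (f i) = f' i) ∨ ∀ i, g (f i) = f' (swap x y i) := by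
  obtain ⟨g, hg⟩ := exists_perm_tuple f f' hf hf'
  rcases Int.units_eq_one_or (Perm.sign g) with h | h
  · exact ⟨g, Perm.mem_alternatingGroup.mpr h, Or.inl hg⟩
  · refine ⟨g * swap (f x) (f y), ?_, Or.inr fun i => ?_⟩
    · rw [Perm.mem_alternatingGroup, map_mul, h, Perm.sign_swap (hf.ne hxy)]; rfl
    · rw [Perm.mul_apply, hf.swap_apply, hg]

variable {F : Type*} [Field F] {ι : Type*} [Fintype ι] [DecidableEq ι]

open Matrix.SpecialLinearGroup (transvection)

/-- Permutation matrices of even permutations. -/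
def altMatrix : alternatingGroup ι →* Matrix.SpecialLinearGroup ι F where
  toFun σ := ⟨Equiv.Perm.permMatrix F (σ.1⁻¹), by
    rw [Matrix.det_permutation, Perm.sign_inv, Perm.mem_alternatingGroup.mp σ.2]; simp⟩
  map_one' := Subtype.ext (by
    show Equiv.Perm.permMatrix F ((1 : Perm ι)⁻¹) = 1
    rw [inv_one, Matrix.permMatrix_one])
  map_mul' σ τ := Subtype.ext (by
    show Equiv.Perm.permMatrix F ((σ.1 * τ.1)⁻¹) = _
    rw [mul_inv_rev, Matrix.permMatrix_mul]; rfl)

theorem altMatrix_smul (σ : alternatingGroup ι) (v : ι → F) (k : ι) :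
    ((altMatrix σ : Matrix.SpecialLinearGroup ι F) • v) k = v (σ.1⁻¹ k) := by
  rw [Matrix.SpecialLinearGroup.smul_def]
  show Matrix.mulVec (Equiv.Perm.permMatrix F (σ.1⁻¹)) v k = _
  rw [Matrix.permMatrix_mulVec]; rfl

theorem altMatrix_conj (σ : alternatingGroup ι) {i j : ι} (h : i ≠ j) (v : F) :
    (altMatrix σ : Matrix.SpecialLinearGroup ι F) * transvection h v * (altMatrix σ)⁻¹ =
      transvection (σ.1.injective.ne h) v := by
  rw [mul_inv_eq_iff_eq_mul]
  refine CfsgLib.SLn.ext_smul fun w => funext fun k => ?_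
  rw [mul_smul, mul_smul, altMatrix_smul, CfsgLib.SLn.transvection_smul_apply, CfsgLib.SLn.transvection_smul_apply,
    altMatrix_smul, altMatrix_smul]
  simp only [Perm.inv_eq_iff_eq]
  simp

theorem transvection_commute {i j k l : ι} (h : i ≠ j) (h' : k ≠ l) (hil : i ≠ l) (hjk : j ≠ k) (v w : F) :
    Commute (transvection h v : Matrix.SpecialLinearGroup ι F) (transvection h' w) := by
  refine CfsgLib.SLn.ext_smul fun z => funext fun a => ?_
  simp only [mul_smul, CfsgLib.SLn.transvection_smul_apply, hjk, Ne.symm hil, if_false, add_zero]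
  split_ifs <;> ring

theorem transvection_triple {i j l : ι} (hij : i ≠ j) (hjl : j ≠ l) (hil : i ≠ l) (v w : F) :
    (transvection hij v : Matrix.SpecialLinearGroup ι F) * transvection hjl w * (transvection hij v)⁻¹ *
      (transvection hjl w)⁻¹ = transvection hil (v * w) :=
  CfsgLib.SLn.commutator_transvection hij hjl hil v w

/-- The upper left block. -/
def block (k : ℕ) : Matrix.SpecialLinearGroup (Fin 3) F →* Matrix.SpecialLinearGroup (Fin (3 + k)) F where
  toFun M := ⟨Matrix.reindex finSumFinEquiv finSumFinEquiv (Matrix.fromBlocks M.1 0 0 1), by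
    rw [Matrix.det_reindex_self, Matrix.det_fromBlocks_zero₂₁, M.2, Matrix.det_one, one_mul]⟩
  map_one' := Subtype.ext (by
    show Matrix.reindex finSumFinEquiv finSumFinEquiv (Matrix.fromBlocks (1 : Matrix (Fin 3) (Fin 3) F) 0 0 1) = 1
    rw [Matrix.fromBlocks_one]; simp)
  map_mul' M N := Subtype.ext (by
    show Matrix.reindex finSumFinEquiv finSumFinEquiv (Matrix.fromBlocks (M.1 * N.1) 0 0 1) =
      Matrix.reindex finSumFinEquiv finSumFinEquiv (Matrix.fromBlocks M.1 0 0 1) *
        Matrix.reindex finSumFinEquiv finSumFinEquiv (Matrix.fromBlocks N.1 0 0 1)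
    rw [Matrix.reindex_apply, Matrix.reindex_apply, Matrix.reindex_apply, Matrix.submatrix_mul_equiv,
      Matrix.fromBlocks_multiply]
    simp)

theorem block_val (k : ℕ) (M : Matrix.SpecialLinearGroup (Fin 3) F) (i j : Fin 3 ⊕ Fin k) :
    (block k M).1 (finSumFinEquiv i) (finSumFinEquiv j) = Matrix.fromBlocks M.1 0 0 1 i j := by
  show Matrix.reindex finSumFinEquiv finSumFinEquiv (Matrix.fromBlocks M.1 0 0 1) _ _ = _
  simp

theorem block_tv (k : ℕ) {a b : Fin 3} (h : a ≠ b) (v : F) :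
    block k (tv h v) = transvection ((Fin.castAdd_injective 3 k).ne h) v := by
  refine Subtype.ext (Matrix.ext fun i j => ?_)
  obtain ⟨i, rfl⟩ := finSumFinEquiv.surjective i
  obtain ⟨j, rfl⟩ := finSumFinEquiv.surjective j
  rw [block_val, Matrix.SpecialLinearGroup.transvection_coe]
  rcases i with i | i <;> rcases j with j | j <;>
    simp [tv_apply, Matrix.single, Matrix.one_apply, Fin.ext_iff]
  all_goals (try split_ifs) <;> first | omega | simp | (intros; omega)

/-- The element exchanging the first two axes. -/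
def mSwap (F : Type*) [Field F] : Matrix.SpecialLinearGroup (Fin 3) F :=
  ⟨!![0, 1, 0; 1, 0, 0; 0, 0, -1], by simp [Matrix.det_fin_three]⟩

theorem mSwap_val : (mSwap F).1 = !![0, 1, 0; 1, 0, 0; 0, 0, -1] := rfl

theorem mSwap_conj01 (v : F) : mSwap F * tv h01 v * (mSwap F)⁻¹ = tv h01.symm v := by
  rw [mul_inv_eq_iff_eq_mul]
  refine ext3 fun i j => ?_
  fin_cases i <;> fin_cases j <;>
    simp [Matrix.SpecialLinearGroup.coe_mul, mSwap_val, tv_apply, Matrix.mul_apply, Fin.sum_univ_three]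

theorem mSwap_conj10 (v : F) : mSwap F * tv h01.symm v * (mSwap F)⁻¹ = tv h01 v := by
  rw [mul_inv_eq_iff_eq_mul]
  refine ext3 fun i j => ?_
  fin_cases i <;> fin_cases j <;>
    simp [Matrix.SpecialLinearGroup.coe_mul, mSwap_val, tv_apply, Matrix.mul_apply, Fin.sum_univ_three]

/-- The subgroup of the first root pair. -/
def rankOne (F : Type*) [Field F] : Subgroup (Matrix.SpecialLinearGroup (Fin 3) F) :=
  Subgroup.closure (Set.range (fun v : F => tv h01 v) ∪ Set.range fun v : F => tv h01.symm v)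

theorem e01_mem_rankOne (v : F) : e01 v ∈ rankOne F :=
  Subgroup.subset_closure (Or.inl ⟨v, rfl⟩)

theorem mT_mem_rankOne : mT F ∈ rankOne F := by
  rw [← SL3Pres.braid, conjT]
  exact mul_mem (mul_mem (e01_mem_rankOne _) (Subgroup.subset_closure (Or.inr ⟨_, rfl⟩))) (e01_mem_rankOne _)

theorem mH_mem_rankOne (ω : Fˣ) : mH ω ∈ rankOne F := by
  rw [← SL3Pres.hdef, conjT]
  exact mul_mem (mul_mem (mul_mem (e01_mem_rankOne _) (Subgroup.subset_closure (Or.inr ⟨_, rfl⟩))) (e01_mem_rankOne _))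
    (inv_mem mT_mem_rankOne)

/-- The root subgroup inside the subgroup generated by one root element and the torus. -/
theorem e01_mem_closure [Fintype F] (ω : Fˣ) (hω : ∀ z : Fˣ, z ∈ Subgroup.zpowers ω) (v : F) :
    e01 v ∈ Subgroup.closure {e01 (1 : F), mH ω} := by
  set S := Subgroup.closure {e01 (1 : F), mH ω}
  have hu : e01 (1 : F) ∈ S := Subgroup.subset_closure (Set.mem_insert _ _)
  have hh : mH ω ∈ S := Subgroup.subset_closure (Set.mem_insert_of_mem _ rfl)
  have hsq : ∀ z : F, e01 (z ^ 2) ∈ S := by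
    intro z
    rcases eq_or_ne z 0 with rfl | hz
    · rw [zero_pow two_ne_zero, e01_zero]; exact one_mem S
    obtain ⟨j, rfl⟩ := exists_log ω hω z hz
    clear hz
    induction j with
    | zero => simpa using hu
    | succ j ih =>
      have := mul_mem (mul_mem hh ih) (inv_mem hh)
      rw [conjH] at this
      convert this using 2
      ring
  by_cases h2 : (2 : F) = 0
  · have : CharP F 2 := CharTwo.of_one_ne_zero_of_two_eq_zero one_ne_zero h2
    obtain ⟨y, hy⟩ := (PerfectRing.bijective_frobenius (R := F) (p := 2)).2 v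
    rw [← hy]; exact hsq y
  · have := mul_mem (hsq ((v + 1) / 2)) (inv_mem (hsq ((v - 1) / 2)))
    rw [e01_inv, ← e01_add] at this
    convert this using 2
    field_simp
    ring

/-- Presentations of `SL₃(F)`. -/
theorem hasPres_three [Fintype F] : HasPres (Matrix.SpecialLinearGroup (Fin 3) F) 14 := by
  by_cases h4 : Fintype.card F = 4
  · obtain ⟨rels, hc, ⟨e⟩⟩ := fourteen_four h4
    exact HasPres.ofPresented rels hc e
  · obtain ⟨rels, hc, ⟨e⟩⟩ := fourteen h4
    exact HasPres.ofPresented rels hc e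

set_option maxHeartbeats 1600000 in
/-- Presentations of `SL_n(F)` for `n ≥ 4`. -/
theorem hasPres_large [Fintype F] (k : ℕ) (hk : 1 ≤ k) :
    HasPres (Matrix.SpecialLinearGroup (Fin (3 + k)) F) 63 := by
  classical
  obtain ⟨ω, hω⟩ := IsCyclic.exists_generator (α := Fˣ)
  let p0 : (Fin (3 + k)) := Fin.castAdd k 0
  let p1 : (Fin (3 + k)) := Fin.castAdd k 1
  let p2 : (Fin (3 + k)) := Fin.castAdd k 2
  let p3 : (Fin (3 + k)) := ⟨3, by omega⟩
  have h01' : p0 ≠ p1 := by simp [p0, p1, Fin.ext_iff]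
  have hquad : Function.Injective ![p0, p1, p2, p3] := by
    intro a b
    fin_cases a <;> fin_cases b <;> simp [p0, p1, p2, p3, Fin.ext_iff]
  -- the distinguished even permutations
  let c012 : alternatingGroup (Fin (3 + k)) := ⟨cyc p0 p2 p1, cyc_mem h01' (by simp [p0, p2, Fin.ext_iff])⟩
  have hc : ∀ a : Fin 3, c012.1 (Fin.castAdd k a) = Fin.castAdd k (a + 1) := by
    intro a
    fin_cases a <;> simp [c012, cyc, p0, p1, p2, Perm.mul_apply, swap_apply_def, Fin.ext_iff]
  let πp : alternatingGroup (Fin (3 + k)) := ⟨swap p0 p1 * swap p2 p3, by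
    rw [Perm.mem_alternatingGroup, map_mul, Perm.sign_swap h01', Perm.sign_swap (by simp [p2, p3, Fin.ext_iff])]; rfl⟩
  let g0 : alternatingGroup (Fin (3 + k)) := ⟨swap p0 p2 * swap p1 p3, by
    rw [Perm.mem_alternatingGroup, map_mul, Perm.sign_swap (by simp [p0, p2, Fin.ext_iff]),
      Perm.sign_swap (by simp [p1, p3, Fin.ext_iff])]; rfl⟩
  have hπ0 : πp.1 p0 = p1 ∧ πp.1 p1 = p0 := by
    constructor <;> simp [πp, p0, p1, p2, p3, Perm.mul_apply, swap_apply_def, Fin.ext_iff]
  have hg0 : g0.1 p0 = p2 ∧ g0.1 p1 = p3 ∧ g0.1 p2 = p0 ∧ g0.1 p3 = p1 := by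
    refine ⟨?_, ?_, ?_, ?_⟩ <;> simp [g0, p0, p1, p2, p3, Perm.mul_apply, swap_apply_def, Fin.ext_iff]
  -- generators of the stabiliser of the first two points
  have hab2 : p2 ≠ p3 := by simp [p2, p3, Fin.ext_iff]
  set O : Finset (Fin (3 + k)) := Finset.univ.filter (fun i => 4 ≤ i.1) with hO
  obtain ⟨σ, hσ, hfσ, habσ, hmσ, htσ⟩ := exists_sigma hab2 O (by simp [hO, p2]) (by simp [hO, p3])
  let stab : List (alternatingGroup (Fin (3 + k))) :=
    if h : 4 < 3 + k then [⟨cyc p2 p3 ⟨4, h⟩, cyc_mem (by simp [p2, Fin.ext_iff]) hab2⟩, ⟨σ, hσ⟩] else []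
  have hstabfix : ∀ s ∈ stab, s.1 p0 = p0 ∧ s.1 p1 = p1 := by
    intro s hs
    simp only [stab] at hs
    split_ifs at hs with h
    · simp only [List.mem_cons, List.not_mem_nil, or_false] at hs
      rcases hs with rfl | rfl
      · constructor <;> simp [cyc, p0, p1, p2, p3, Perm.mul_apply, swap_apply_def, Fin.ext_iff]
      · exact ⟨hfσ p0 (by simp [hO, p0]) (by simp [p0, p2, Fin.ext_iff]) (by simp [p0, p3, Fin.ext_iff]),
          hfσ p1 (by simp [hO, p1]) (by simp [p1, p2, Fin.ext_iff]) (by simp [p1, p3, Fin.ext_iff])⟩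
    · simp at hs
  have hstabgen : ∀ g : alternatingGroup (Fin (3 + k)), g.1 p0 = p0 → g.1 p1 = p1 → g ∈ Subgroup.closure {s | s ∈ stab} := by
    intro g hg0' hg1'
    set K := Subgroup.closure {s | s ∈ stab}
    set S : Finset (Fin (3 + k)) := Finset.univ.filter (fun i => 2 ≤ i.1) with hS
    have h2S : p2 ∈ S := by simp [hS, p2]
    have h3S : p3 ∈ S := by simp [hS, p3]
    obtain ⟨s, hs⟩ := exists_restrict S g.1 g.2 fun x hx => by
      simp [hS] at hx
      have : x = p0 ∨ x = p1 := by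
        rcases Nat.eq_zero_or_pos x.1 with h | h
        · exact Or.inl (Fin.ext (by simp [p0, h]))
        · exact Or.inr (Fin.ext (by simp [p1]; omega))
      rcases this with rfl | rfl
      exacts [hg0', hg1']
    have hcyc : ∀ (i : (Fin (3 + k))) (hi : 4 ≤ i.1), (⟨cyc p2 p3 i, cyc_mem (fun e => by have := congrArg Fin.val e; simp [p2] at this; omega) hab2⟩ : alternatingGroup (Fin (3 + k))) ∈ K := by
      intro i hi
      have h4 : 4 < 3 + k := lt_of_le_of_lt hi i.2
      have hm : ∀ z ∈ stab, z ∈ K := fun z hz => Subgroup.subset_closure hz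
      simp only [stab, dif_pos h4, List.mem_cons, List.not_mem_nil, or_false] at hm
      have hs4 := hm _ (Or.inl rfl)
      have hsσ := hm _ (Or.inr rfl)
      obtain ⟨r, hr⟩ := htσ ⟨4, h4⟩ (by simp [hO]) i (by simp [hO]; omega)
      have key : ∀ r : ℕ, (σ ^ r) ⟨4, h4⟩ ∈ O ∧ ∀ hne, (⟨cyc p2 p3 ((σ ^ r) ⟨4, h4⟩), cyc_mem hne hab2⟩ : alternatingGroup (Fin (3 + k))) ∈ K := by
        intro r
        induction r with
        | zero => exact ⟨by simp [hO], fun _ => hs4⟩
        | succ r ih =>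
          obtain ⟨hmr, hK⟩ := ih
          have hj := hmσ _ hmr
          rw [pow_succ', Perm.mul_apply]
          refine ⟨hj, fun hne => ?_⟩
          set j := (σ ^ r) ⟨4, h4⟩
          have hj4 : 4 ≤ j.1 := by simpa [hO] using hmr
          have hj2 : p2 ≠ j := fun e => by rw [← e] at hj4; simp [p2] at hj4
          have hj3 : p3 ≠ j := fun e => by rw [← e] at hj4; simp [p3] at hj4
          have h1 := mul_mem (mul_mem hsσ (hK hj2)) (inv_mem hsσ)
          rcases habσ with ⟨e2, e3⟩ | ⟨e2, e3⟩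
          · convert h1 using 1
            exact Subtype.ext (by simp [cyc_conj, e2, e3]; rfl)
          · convert inv_mem h1 using 1
            apply Subtype.ext
            have n1 : p2 ≠ σ j := hne
            have n2 : p3 ≠ σ j := fun e => hj2 (σ.injective (e2.trans e))
            simp only [Subgroup.coe_inv, Subgroup.coe_mul, cyc_conj, e2, e3]
            rw [cyc_swap hab2 n1 n2, inv_inv]
      obtain ⟨h1, h2⟩ := key r
      simp only [hr] at h2
      exact h2 (fun e => by have := congrArg Fin.val e; simp [p2] at this; omega)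
    have hs' : s.1 ∈ Subgroup.map (alternatingGroup S).subtype (K.comap (alternatingGroup.ofSubtype S)) := by
      refine (Subgroup.closure_le _).mpr ?_
        ((closure_cyc (a := (⟨p2, h2S⟩ : S)) (b := ⟨p3, h3S⟩) (fun e => hab2 (congrArg Subtype.val e))).ge s.2)
      rintro _ ⟨⟨i, hiS⟩, hi2, hi3, rfl⟩
      have h2 : p2 ≠ i := fun e => hi2 (Subtype.ext e)
      have h3 : p3 ≠ i := fun e => hi3 (Subtype.ext e)
      have hi : 4 ≤ i.1 := by
        have : 2 ≤ i.1 := by simpa [hS] using hiS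
        simp [p2, p3, Fin.ext_iff] at h2 h3
        omega
      refine ⟨⟨_, cyc_mem hi2 (fun e => hab2 (congrArg Subtype.val e))⟩, ?_, rfl⟩
      rw [SetLike.mem_coe, Subgroup.mem_comap]
      convert hcyc i hi using 1
      exact Subtype.ext (by
        show Perm.ofSubtype (cyc (⟨p2, h2S⟩ : S) ⟨p3, h3S⟩ ⟨i, hiS⟩) = _
        simp only [cyc, map_mul, Perm.ofSubtype_swap_eq])
    obtain ⟨s', hs'', e⟩ := hs'
    rw [show s' = s from Subtype.ext e, SetLike.mem_coe, Subgroup.mem_comap] at hs''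
    convert hs'' using 1
    exact Subtype.ext hs.symm
  -- the target
  let ψ3 : Matrix.SpecialLinearGroup (Fin 3) F →* Matrix.SpecialLinearGroup (Fin (3 + k)) F := block k
  let ρ : alternatingGroup (Fin (3 + k)) →* Matrix.SpecialLinearGroup (Fin (3 + k)) F := altMatrix
  have hcast : ∀ {a b : Fin 3}, a ≠ b → Fin.castAdd k a ≠ Fin.castAdd k b := fun h => (Fin.castAdd_injective 3 k).ne h
  have hgen3 : Subgroup.closure {M | ∃ (a b : Fin 3) (h : a ≠ b) (v : F), M = tv h v} = ⊤ :=
    CfsgLib.SLn.closure_transvections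
  let C := Coprod (Matrix.SpecialLinearGroup (Fin 3) F) (alternatingGroup (Fin (3 + k)))
  let Il : Matrix.SpecialLinearGroup (Fin 3) F → C := fun z => Coprod.inl z
  let Ir : alternatingGroup (Fin (3 + k)) → C := fun z => Coprod.inr z
  let U := e01 (1 : F)
  let H := mH ω
  let cj : Matrix.SpecialLinearGroup (Fin 3) F → C := fun z => Ir g0 * Il z * (Ir g0)⁻¹
  let comm2 : C → C → C := fun a b => a * b * (b * a)⁻¹
  let extra : List C := [Il (mC F) * (Ir c012)⁻¹] ++ (stab.map fun s => comm2 (Ir s) (Il U)) ++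
    (stab.map fun s => comm2 (Ir s) (Il H)) ++
    [Ir πp * Il U * (Ir πp)⁻¹ * (Il (mSwap F * U * (mSwap F)⁻¹))⁻¹,
      Ir πp * Il H * (Ir πp)⁻¹ * (Il (mSwap F * H * (mSwap F)⁻¹))⁻¹,
      comm2 (Il U) (cj U), comm2 (Il U) (cj H), comm2 (Il H) (cj U), comm2 (Il H) (cj H),
      comm2 (Il (mT F)) (cj U), comm2 (Il (mT F)) (cj H)]
  have hstablen : stab.length ≤ 2 := by simp only [stab]; split_ifs <;> simp
  have hmC : ψ3 (mC F) = ρ c012 := by
    refine Subtype.ext (Matrix.ext fun i j => ?_)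
    obtain ⟨i, rfl⟩ := finSumFinEquiv.surjective i
    obtain ⟨j, rfl⟩ := finSumFinEquiv.surjective j
    rw [block_val]
    show _ = Equiv.Perm.permMatrix F (c012.1⁻¹) _ _
    rw [Equiv.Perm.permMatrix, PEquiv.toMatrix_apply]
    simp only [Equiv.toPEquiv_apply, Option.mem_def, Option.some.injEq, Perm.inv_eq_iff_eq]
    have hr : ∀ j : Fin k, c012.1 (Fin.natAdd 3 j) = Fin.natAdd 3 j := fun j => by
      have hne : ∀ a : Fin 3, Fin.natAdd 3 j ≠ Fin.castAdd k a := fun a e => by
        have := congrArg Fin.val e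
        simp at this
        omega
      show (swap p0 p2 * swap p0 p1 : Perm (Fin (3 + k))) _ = _
      rw [Perm.mul_apply, swap_apply_of_ne_of_ne (hne 0) (hne 1), swap_apply_of_ne_of_ne (hne 0) (hne 2)]
    rcases i with i | i <;> rcases j with j | j <;>
      simp only [finSumFinEquiv_apply_left, finSumFinEquiv_apply_right, hc, hr, Matrix.fromBlocks_apply₁₁,
        Matrix.fromBlocks_apply₁₂, Matrix.fromBlocks_apply₂₁, Matrix.fromBlocks_apply₂₂, Matrix.zero_apply,
        Matrix.one_apply]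
    · rw [SL3Pres.mC_val]
      fin_cases i <;> fin_cases j <;> simp [Fin.ext_iff]
    all_goals simp [Fin.ext_iff]
    all_goals omega
  have hstabψ : ∀ (g : alternatingGroup (Fin (3 + k))), g.1 p0 = p0 → g.1 p1 = p1 → ∀ z ∈ rankOne F,
      Commute (ρ g) (ψ3 z) := by
    intro g hg0' hg1' z hz
    have hle : rankOne F ≤ (Subgroup.centralizer {ρ g}).comap ψ3 := by
      refine (Subgroup.closure_le _).mpr ?_
      rintro _ (⟨v, rfl⟩ | ⟨v, rfl⟩) <;>
        rw [SetLike.mem_coe, Subgroup.mem_comap, Subgroup.mem_centralizer_singleton_iff] <;>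
        refine (mul_inv_eq_iff_eq_mul.mp ?_).symm <;>
        rw [block_tv, altMatrix_conj] <;> congr 1
    exact (Subgroup.mem_centralizer_singleton_iff.mp (hle hz)).symm
  have hdisj : ∀ z ∈ rankOne F, ∀ z' ∈ rankOne F, Commute (ψ3 z) (ρ g0 * ψ3 z' * (ρ g0)⁻¹) := by
    have key : ∀ {a b : Fin 3} (h : a ≠ b), (a = 0 ∨ a = 1) → (b = 0 ∨ b = 1) → ∀ v {c d : Fin 3} (h' : c ≠ d),
        (c = 0 ∨ c = 1) → (d = 0 ∨ d = 1) → ∀ w, Commute (ψ3 (tv h v)) (ρ g0 * ψ3 (tv h' w) * (ρ g0)⁻¹) := by
      intro a b h ha hb v c d h' hc' hd w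
      rw [block_tv, block_tv, altMatrix_conj]
      refine transvection_commute _ _ ?_ ?_ _ _
      all_goals
        rcases ha with rfl | rfl <;> rcases hb with rfl | rfl <;> rcases hc' with rfl | rfl <;> rcases hd with rfl | rfl <;>
          first
            | exact absurd rfl h
            | exact absurd rfl h'
            | (simp only [show Fin.castAdd k (0 : Fin 3) = p0 from rfl, show Fin.castAdd k (1 : Fin 3) = p1 from rfl,
                hg0.1, hg0.2.1]; simp [p0, p1, p2, p3, Fin.ext_iff])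
    intro z hz
    have hle : rankOne F ≤ (Subgroup.centralizer ((rankOne F).map ((MulAut.conj (ρ g0)).toMonoidHom.comp ψ3) : Set _)).comap ψ3 := by
      refine (Subgroup.closure_le _).mpr ?_
      intro y hy
      rw [SetLike.mem_coe, Subgroup.mem_comap, Subgroup.mem_centralizer_iff]
      rintro _ ⟨z', hz', rfl⟩
      have hle' : rankOne F ≤ (Subgroup.centralizer {ψ3 y}).comap ((MulAut.conj (ρ g0)).toMonoidHom.comp ψ3) := by
        refine (Subgroup.closure_le _).mpr ?_
        intro y' hy'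
        rw [SetLike.mem_coe, Subgroup.mem_comap, Subgroup.mem_centralizer_singleton_iff]
        rcases hy with ⟨v, rfl⟩ | ⟨v, rfl⟩ <;> rcases hy' with ⟨w, rfl⟩ | ⟨w, rfl⟩ <;>
          exact ((key _ (by simp) (by simp) v _ (by simp) (by simp) w).eq).symm
      exact Subgroup.mem_centralizer_singleton_iff.mp (hle' hz')
    intro z' hz'
    exact ((Subgroup.mem_centralizer_iff.mp (hle hz)) _ ⟨z', hz', rfl⟩).symm
  have hπψ : ∀ z ∈ rankOne F, ρ πp * ψ3 z * (ρ πp)⁻¹ = ψ3 (mSwap F * z * (mSwap F)⁻¹) := by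
    intro z hz
    have h := MonoidHom.eqOn_closure (f := (MulAut.conj (ρ πp)).toMonoidHom.comp ψ3)
      (g := ψ3.comp (MulAut.conj (mSwap F)).toMonoidHom) ?_ hz
    · exact h
    rintro _ (⟨v, rfl⟩ | ⟨v, rfl⟩)
    · show ρ πp * ψ3 (tv h01 v) * (ρ πp)⁻¹ = ψ3 (mSwap F * tv h01 v * (mSwap F)⁻¹)
      rw [mSwap_conj01, block_tv, block_tv, altMatrix_conj]
      congr 1 <;> first | exact hπ0.1 | exact hπ0.2
    · show ρ πp * ψ3 (tv h01.symm v) * (ρ πp)⁻¹ = ψ3 (mSwap F * tv h01.symm v * (mSwap F)⁻¹)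
      rw [mSwap_conj10, block_tv, block_tv, altMatrix_conj]
      congr 1 <;> first | exact hπ0.1 | exact hπ0.2
  have hUr : U ∈ rankOne F := e01_mem_rankOne 1
  have hHr : H ∈ rankOne F := mH_mem_rankOne ω
  have hTr : mT F ∈ rankOne F := mT_mem_rankOne
  refine (HasPres.amalgam (hasPres_three (F := F)) (alt_bounded (3 + k) (by omega)) ψ3 ρ ?_ extra ?_ ?_).mono ?_
  · haveI : Nontrivial (Fin (3 + k)) := Fin.nontrivial_iff_two_le.mpr (by omega)
    rw [eq_top_iff, ← CfsgLib.SLn.closure_transvections (ι := (Fin (3 + k))) (F := F), Subgroup.closure_le]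
    rintro _ ⟨i, j, hij, v, rfl⟩
    obtain ⟨m, hmi, hmj⟩ : ∃ m, m ≠ i ∧ m ≠ j := by
      by_contra hne
      push Not at hne
      have : (Finset.univ : Finset (Fin (3 + k))) ⊆ {i, j} := fun x _ => by
        rcases eq_or_ne x i with h | h
        · simp [h]
        · simp [hne x h]
      have := (Finset.card_le_card this).trans Finset.card_le_two
      rw [Finset.card_univ, Fintype.card_fin] at this
      omega
    obtain ⟨g, hg, hg'⟩ := exists_even_tuple (fun a : Fin 3 => Fin.castAdd k a) ![i, j, m] (Fin.castAdd_injective 3 k)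
      (by intro a b; fin_cases a <;> fin_cases b <;> simp [hij, hij.symm, hmi, hmi.symm, hmj, hmj.symm]) 0 1 (by decide)
    have : ∃ (a b : Fin 3) (h : a ≠ b), g (Fin.castAdd k a) = i ∧ g (Fin.castAdd k b) = j := by
      rcases hg' with hg' | hg'
      · exact ⟨0, 1, by decide, hg' 0, hg' 1⟩
      · exact ⟨1, 0, by decide, by rw [hg' 1]; simp, by rw [hg' 0]; simp⟩
    obtain ⟨a, b, h, rfl, rfl⟩ := this
    have e := altMatrix_conj (⟨g, hg⟩ : alternatingGroup (Fin (3 + k))) (hcast h) v
    rw [← block_tv] at e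
    rw [SetLike.mem_coe, ← e]
    exact mul_mem (mul_mem (Subgroup.mem_sup_right ⟨_, rfl⟩) (Subgroup.mem_sup_left ⟨_, rfl⟩))
      (inv_mem (Subgroup.mem_sup_right ⟨_, rfl⟩))
    exact h
  · intro r hr
    simp only [extra, List.mem_append, List.mem_cons, List.not_mem_nil, or_false, List.mem_map] at hr
    rcases hr with (((rfl | ⟨s, hs, rfl⟩) | ⟨s, hs, rfl⟩) | rfl | rfl | rfl | rfl | rfl | rfl | rfl | rfl)
    all_goals simp only [comm2, cj, Il, Ir, map_mul, map_inv, Coprod.lift_apply_inl, Coprod.lift_apply_inr,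
      mul_inv_eq_one]
    · exact hmC
    · exact (hstabψ s (hstabfix s hs).1 (hstabfix s hs).2 U hUr).eq
    · exact (hstabψ s (hstabfix s hs).1 (hstabfix s hs).2 H hHr).eq
    · rw [hπψ U hUr, map_mul, map_mul, map_inv]
    · rw [hπψ H hHr, map_mul, map_mul, map_inv]
    · exact (hdisj U hUr U hUr).eq
    · exact (hdisj U hUr H hHr).eq
    · exact (hdisj H hHr U hUr).eq
    · exact (hdisj H hHr H hHr).eq
    · exact (hdisj _ hTr U hUr).eq
    · exact (hdisj _ hTr H hHr).eq
  swap
  · simp only [extra, List.length_append, List.length_map, List.length_cons, List.length_nil]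
    omega
  intro G _ φ3 φA π hπ3 hπA hgen hrel
  have hπ3' : ∀ z, π (φ3 z) = ψ3 z := DFunLike.congr_fun hπ3
  have hπA' : ∀ z, π (φA z) = ρ z := DFunLike.congr_fun hπA
  have hr : ∀ r ∈ extra, Coprod.lift φ3 φA r = 1 := hrel
  simp only [extra, List.mem_append, List.mem_cons, List.not_mem_nil, or_false, List.mem_map] at hr
  have rc : φ3 (mC F) = φA c012 := by
    have := hr _ (Or.inl (Or.inl (Or.inl rfl)))
    simpa [Il, Ir, mul_inv_eq_one] using this
  have rsU : ∀ s ∈ stab, Commute (φA s) (φ3 U) := fun s hs => by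
    have := hr _ (Or.inl (Or.inl (Or.inr ⟨s, hs, rfl⟩)))
    simp only [comm2, Il, Ir, map_mul, map_inv, Coprod.lift_apply_inl, Coprod.lift_apply_inr, mul_inv_eq_one] at this
    exact this
  have rsH : ∀ s ∈ stab, Commute (φA s) (φ3 H) := fun s hs => by
    have := hr _ (Or.inl (Or.inr ⟨s, hs, rfl⟩))
    simp only [comm2, Il, Ir, map_mul, map_inv, Coprod.lift_apply_inl, Coprod.lift_apply_inr, mul_inv_eq_one] at this
    exact this
  have q1 := hr _ (Or.inr (Or.inl rfl))
  have q2 := hr _ (Or.inr (Or.inr (Or.inl rfl)))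
  have q3 := hr _ (Or.inr (Or.inr (Or.inr (Or.inl rfl))))
  have q4 := hr _ (Or.inr (Or.inr (Or.inr (Or.inr (Or.inl rfl)))))
  have q5 := hr _ (Or.inr (Or.inr (Or.inr (Or.inr (Or.inr (Or.inl rfl))))))
  have q6 := hr _ (Or.inr (Or.inr (Or.inr (Or.inr (Or.inr (Or.inr (Or.inl rfl)))))))
  have q7 := hr _ (Or.inr (Or.inr (Or.inr (Or.inr (Or.inr (Or.inr (Or.inr (Or.inl rfl))))))))
  have q8 := hr _ (Or.inr (Or.inr (Or.inr (Or.inr (Or.inr (Or.inr (Or.inr (Or.inr rfl))))))))
  simp only [comm2, cj, Il, Ir, map_mul, map_inv, Coprod.lift_apply_inl, Coprod.lift_apply_inr,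
    mul_inv_eq_one] at q1 q2 q3 q4 q5 q6 q7 q8
  let x : F → G := fun v => φ3 (e01 v)
  have hUH : ∀ v, e01 v ∈ Subgroup.closure {U, H} := e01_mem_closure ω hω
  have hxs : ∀ g : alternatingGroup (Fin (3 + k)), g.1 p0 = p0 → g.1 p1 = p1 → ∀ v, Commute (φA g) (x v) := by
    intro g hg0' hg1' v
    have h1 : ∀ z ∈ Subgroup.closure {U, H}, ∀ s ∈ stab, Commute (φA s) (φ3 z) := by
      intro z hz s hs
      have hle : Subgroup.closure {U, H} ≤ (Subgroup.centralizer {φA s}).comap φ3 := by
        refine (Subgroup.closure_le _).mpr ?_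
        rintro y (rfl | rfl) <;> rw [SetLike.mem_coe, Subgroup.mem_comap, Subgroup.mem_centralizer_singleton_iff]
        · exact (rsU s hs).eq.symm
        · exact (rsH s hs).eq.symm
      exact (Subgroup.mem_centralizer_singleton_iff.mp (hle hz)).symm
    have hle : Subgroup.closure {s | s ∈ stab} ≤ (Subgroup.centralizer {x v}).comap φA := by
      refine (Subgroup.closure_le _).mpr fun s hs => ?_
      rw [SetLike.mem_coe, Subgroup.mem_comap, Subgroup.mem_centralizer_singleton_iff]
      exact (h1 _ (hUH v) s hs).eq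
    exact Subgroup.mem_centralizer_singleton_iff.mp (hle (hstabgen g hg0' hg1'))
  have hexist : ∀ i j : (Fin (3 + k)), i ≠ j → ∃ g : alternatingGroup (Fin (3 + k)), g.1 p0 = i ∧ g.1 p1 = j := by
    intro i j hij
    obtain ⟨f, hf⟩ := exists_perm_tuple ![p0, p1] ![i, j]
      (by intro a b; fin_cases a <;> fin_cases b <;> simp [h01', h01'.symm])
      (by intro a b; fin_cases a <;> fin_cases b <;> simp [hij, hij.symm])
    rcases Int.units_eq_one_or (Perm.sign f) with h | h
    · exact ⟨⟨f, Perm.mem_alternatingGroup.mpr h⟩, hf 0, hf 1⟩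
    · refine ⟨⟨f * swap p2 p3, by rw [Perm.mem_alternatingGroup, map_mul, h, Perm.sign_swap hab2]; rfl⟩, ?_, ?_⟩
      · show f (swap p2 p3 p0) = i
        rw [swap_apply_of_ne_of_ne (by simp [p0, p2, Fin.ext_iff]) (by simp [p0, p3, Fin.ext_iff])]; exact hf 0
      · show f (swap p2 p3 p1) = j
        rw [swap_apply_of_ne_of_ne (by simp [p1, p2, Fin.ext_iff]) (by simp [p1, p3, Fin.ext_iff])]; exact hf 1
  let X : (Fin (3 + k)) → (Fin (3 + k)) → F → G := fun i j v =>
    if h : i = j then 1 else φA (hexist i j h).choose * x v * (φA (hexist i j h).choose)⁻¹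
  have hX : ∀ (g : alternatingGroup (Fin (3 + k))) v, X (g.1 p0) (g.1 p1) v = φA g * x v * (φA g)⁻¹ := by
    intro g v
    have hne : g.1 p0 ≠ g.1 p1 := g.1.injective.ne h01'
    simp only [X, dif_neg hne]
    obtain ⟨h0, h1⟩ := (hexist _ _ hne).choose_spec
    set g' := (hexist _ _ hne).choose
    have hc := hxs (g⁻¹ * g') (by simp [Perm.mul_apply, h0]) (by simp [Perm.mul_apply, h1]) v
    calc φA g' * x v * (φA g')⁻¹ = φA g * (φA (g⁻¹ * g') * x v * (φA (g⁻¹ * g'))⁻¹) * (φA g)⁻¹ := by
          rw [map_mul, map_inv]; group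
      _ = _ := by rw [hc.eq, mul_inv_cancel_right]
  have hXconj : ∀ (g : alternatingGroup (Fin (3 + k))) i j, i ≠ j → ∀ v, φA g * X i j v * (φA g)⁻¹ = X (g.1 i) (g.1 j) v := by
    intro g i j hij v
    obtain ⟨g', rfl, rfl⟩ := hexist i j hij
    rw [hX, show g.1 (g'.1 p0) = (g * g').1 p0 from rfl, show g.1 (g'.1 p1) = (g * g').1 p1 from rfl, hX, map_mul]
    group
  -- agreement with the block
  have hblock : ∀ {a b : Fin 3} (h : a ≠ b) (v : F), φ3 (tv h v) = X (Fin.castAdd k a) (Fin.castAdd k b) v := by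
    have b01 : ∀ v, φ3 (tv h01 v) = X p0 p1 v := fun v => by
      have := hX 1 v
      simp only [OneMemClass.coe_one, Perm.one_apply, map_one, one_mul, inv_one, mul_one] at this
      exact this.symm
    have hsw : ∀ z ∈ Subgroup.closure {U, H}, φA πp * φ3 z * (φA πp)⁻¹ = φ3 (mSwap F * z * (mSwap F)⁻¹) := by
      intro z hz
      have h := MonoidHom.eqOn_closure (f := (MulAut.conj (φA πp)).toMonoidHom.comp φ3)
        (g := φ3.comp (MulAut.conj (mSwap F)).toMonoidHom) ?_ hz
      · exact h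
      rintro y (rfl | rfl)
      · show φA πp * φ3 U * (φA πp)⁻¹ = φ3 (mSwap F * U * (mSwap F)⁻¹)
        rw [q1, map_mul, map_mul, map_inv]
      · show φA πp * φ3 H * (φA πp)⁻¹ = φ3 (mSwap F * H * (mSwap F)⁻¹)
        rw [q2, map_mul, map_mul, map_inv]
    have b10 : ∀ v, φ3 (tv h01.symm v) = X p1 p0 v := fun v => by
      rw [← mSwap_conj01, ← e01_eq, ← hsw _ (hUH v), e01_eq, b01, hXconj πp p0 p1 h01', hπ0.1, hπ0.2]
    have step : ∀ {a b : Fin 3} (h : a ≠ b) (h' : a + 1 ≠ b + 1),
        (∀ v, φ3 (tv h v) = X (Fin.castAdd k a) (Fin.castAdd k b) v) →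
        ∀ v, φ3 (tv h' v) = X (Fin.castAdd k (a + 1)) (Fin.castAdd k (b + 1)) v := fun h h' hb v => by
      rw [← conjC h h', map_mul, map_mul, map_inv, hb, rc, hXconj c012 _ _ (hcast h), hc, hc]
    have b12 := step (a := 0) (b := 1) h01 (by decide) b01
    have b20 := step (a := 1) (b := 2) (by decide) (by decide) b12
    have b21 := step (a := 1) (b := 0) h01.symm (by decide) b10
    have b02 := step (a := 2) (b := 1) (by decide) (by decide) b21
    intro a b h v
    fin_cases a <;> fin_cases b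
    all_goals first
      | exact absurd rfl h
      | exact b01 v
      | exact b10 v
      | exact b12 v
      | exact b20 v
      | exact b21 v
      | exact b02 v
  have pull : ∀ i j m : (Fin (3 + k)), i ≠ j → m ≠ i → m ≠ j → ∃ (g : alternatingGroup (Fin (3 + k))) (a b c : Fin 3),
      g.1 (Fin.castAdd k a) = i ∧ g.1 (Fin.castAdd k b) = j ∧ g.1 (Fin.castAdd k c) = m := by
    intro i j m hij hmi hmj
    obtain ⟨g, hg, hg'⟩ := exists_even_tuple (fun a : Fin 3 => Fin.castAdd k a) ![i, j, m] (Fin.castAdd_injective 3 k)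
      (by intro a b; fin_cases a <;> fin_cases b <;> simp [hij, hij.symm, hmi, hmi.symm, hmj, hmj.symm]) 0 1 (by decide)
    rcases hg' with hg' | hg'
    · exact ⟨⟨g, hg⟩, 0, 1, 2, hg' 0, hg' 1, hg' 2⟩
    · refine ⟨⟨g, hg⟩, 1, 0, 2, ?_, ?_, ?_⟩
      · show g _ = _; rw [hg' 1]; simp
      · show g _ = _; rw [hg' 0]; simp
      · show g _ = _; rw [hg' 2]; simp [swap_apply_def]
  have third : ∀ i j : (Fin (3 + k)), ∃ m, m ≠ i ∧ m ≠ j := by
    intro i j
    by_contra hne
    push Not at hne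
    have : (Finset.univ : Finset (Fin (3 + k))) ⊆ {i, j} := fun x _ => by
      rcases eq_or_ne x i with h | h
      · simp [h]
      · simp [hne x h]
    have := (Finset.card_le_card this).trans Finset.card_le_two
    rw [Finset.card_univ, Fintype.card_fin] at this
    omega
  have pullX : ∀ (g : alternatingGroup (Fin (3 + k))) {a b : Fin 3} (h : a ≠ b) (v : F),
      X (g.1 (Fin.castAdd k a)) (g.1 (Fin.castAdd k b)) v = φA g * φ3 (tv h v) * (φA g)⁻¹ := fun g a b h v => by
    rw [hblock h, hXconj g _ _ (hcast h)]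
  have ne_of : ∀ {g : alternatingGroup (Fin (3 + k))} {a b : Fin 3}, g.1 (Fin.castAdd k a) ≠ g.1 (Fin.castAdd k b) → a ≠ b :=
    fun h e => h (by rw [e])
  have hadd : ∀ {i j}, i ≠ j → ∀ v w, X i j v * X i j w = X i j (v + w) := by
    intro i j hij v w
    obtain ⟨g, rfl, rfl⟩ := hexist i j hij
    rw [hX, hX, hX]
    simp only [x, e01_add, map_mul]
    group
  -- disjoint roots
  have hcj : ∀ y ∈ ({φ3 U, φ3 H, φ3 (mT F)} : Set G), ∀ z ∈ Subgroup.closure {U, H},
      Commute y (φA g0 * φ3 z * (φA g0)⁻¹) := by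
    intro y hy z hz
    have hle : Subgroup.closure {U, H} ≤ (Subgroup.centralizer {y}).comap ((MulAut.conj (φA g0)).toMonoidHom.comp φ3) := by
      refine (Subgroup.closure_le _).mpr ?_
      intro w hw
      rw [SetLike.mem_coe, Subgroup.mem_comap, Subgroup.mem_centralizer_singleton_iff]
      show (φA g0 * φ3 w * (φA g0)⁻¹) * y = y * (φA g0 * φ3 w * (φA g0)⁻¹)
      rcases hy with rfl | rfl | rfl <;> rcases hw with rfl | rfl
      exacts [q3.symm, q4.symm, q5.symm, q6.symm, q7.symm, q8.symm]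
    exact (Subgroup.mem_centralizer_singleton_iff.mp (hle hz)).symm
  have hd0 : ∀ v w, Commute (X p0 p1 v) (X p2 p3 w) ∧ Commute (X p1 p0 v) (X p2 p3 w) := by
    intro v w
    have e23 : X p2 p3 w = φA g0 * x w * (φA g0)⁻¹ := by rw [← hX g0, hg0.1, hg0.2.1]
    have hc : ∀ y ∈ Subgroup.closure ({U, H, mT F} : Set _), Commute (φ3 y) (X p2 p3 w) := by
      intro y hy
      rw [e23]
      have hle : Subgroup.closure ({U, H, mT F} : Set _) ≤ (Subgroup.centralizer {φA g0 * x w * (φA g0)⁻¹}).comap φ3 := by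
        refine (Subgroup.closure_le _).mpr ?_
        intro z hz
        rw [SetLike.mem_coe, Subgroup.mem_comap, Subgroup.mem_centralizer_singleton_iff]
        refine (hcj _ ?_ _ (hUH w)).eq
        rcases hz with rfl | rfl | rfl <;> simp
      exact Subgroup.mem_centralizer_singleton_iff.mp (hle hy)
    have hv : ∀ v, e01 v ∈ Subgroup.closure ({U, H, mT F} : Set _) := fun v =>
      Subgroup.closure_mono (by intro z; simp; tauto) (hUH v)
    constructor
    · rw [show X p0 p1 v = φ3 (tv h01 v) from (hblock h01 v).symm]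
      exact hc _ (hv v)
    · rw [show X p1 p0 v = φ3 (tv h01.symm v) from (hblock h01.symm v).symm, ← neg_neg v, ← conjT (F := F) (-v)]
      exact hc _ (mul_mem (mul_mem (Subgroup.subset_closure (by simp)) (hv _))
        (inv_mem (Subgroup.subset_closure (by simp))))
  have hmapc : ∀ (g : alternatingGroup (Fin (3 + k))) {a b c d : (Fin (3 + k))}, a ≠ b → c ≠ d → ∀ v w, Commute (X a b v) (X c d w) →
      Commute (X (g.1 a) (g.1 b) v) (X (g.1 c) (g.1 d) w) := fun g a b c d hab hcd v w h => by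
    have := h.map (MulAut.conj (φA g)).toMonoidHom
    simpa [MulAut.conj_apply, hXconj g a b hab, hXconj g c d hcd] using this
  have hd1 : ∀ v w, Commute (X p0 p1 v) (X p3 p2 w) := by
    intro v w
    have := hmapc g0 h01'.symm hab2 w v (hd0 w v).2
    rw [hg0.1, hg0.2.1, hg0.2.2.1, hg0.2.2.2] at this
    exact this.symm
  have comm : ∀ {i j a l : (Fin (3 + k))}, i ≠ j → a ≠ l → i ≠ l → j ≠ a → ∀ v w, Commute (X i j v) (X a l w) := by
    intro i j a l hij hal hil hja v w
    by_cases h4 : a ≠ i ∧ l ≠ j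
    · obtain ⟨g, hg, hg'⟩ := exists_even_tuple ![p0, p1, p2, p3] ![i, j, a, l] hquad
        (by
          intro s t
          fin_cases s <;> fin_cases t <;>
            simp [hij, hij.symm, hal, hal.symm, hil, hil.symm, hja, hja.symm, h4.1, h4.1.symm, h4.2, h4.2.symm])
        2 3 (by decide)
      rcases hg' with hg' | hg'
      · have := hmapc ⟨g, hg⟩ h01' hab2 v w (hd0 v w).1
        have e0 := hg' 0; have e1 := hg' 1; have e2 := hg' 2; have e3 := hg' 3
        simp at e0 e1 e2 e3
        simpa [e0, e1, e2, e3] using this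
      · have := hmapc ⟨g, hg⟩ h01' hab2.symm v w (hd1 v w)
        have e0 := hg' 0; have e1 := hg' 1; have e2 := hg' 2; have e3 := hg' 3
        simp [swap_apply_def] at e0 e1 e2 e3
        simpa [e0, e1, e2, e3] using this
    · obtain ⟨m, hmi, hmj, ha, hl⟩ : ∃ m, m ≠ i ∧ m ≠ j ∧ (a = i ∨ a = j ∨ a = m) ∧ (l = i ∨ l = j ∨ l = m) := by
        rw [not_and_or, not_not, not_not] at h4
        rcases h4 with rfl | rfl
        · by_cases hlj : l = j
          · obtain ⟨m, h1, h2⟩ := third a j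
            exact ⟨m, h1, h2, Or.inl rfl, Or.inr (Or.inl hlj)⟩
          · exact ⟨l, hal.symm, hlj, Or.inl rfl, Or.inr (Or.inr rfl)⟩
        · by_cases hai : a = i
          · obtain ⟨m, h1, h2⟩ := third i l
            exact ⟨m, h1, h2, Or.inl hai, Or.inr (Or.inl rfl)⟩
          · exact ⟨a, hai, hja.symm, Or.inr (Or.inr rfl), Or.inr (Or.inl rfl)⟩
      obtain ⟨g, a', b', c', rfl, rfl, rfl⟩ := pull i j m hij hmi hmj
      obtain ⟨d', rfl⟩ : ∃ d', g.1 (Fin.castAdd k d') = a := by
        rcases ha with rfl | rfl | rfl <;> exact ⟨_, rfl⟩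
      obtain ⟨e', rfl⟩ : ∃ e', g.1 (Fin.castAdd k e') = l := by
        rcases hl with rfl | rfl | rfl <;> exact ⟨_, rfl⟩
      rw [pullX g (ne_of hij), pullX g (ne_of hal)]
      exact ((transvection_commute (ne_of hij) (ne_of hal) (ne_of hil) (ne_of hja) v w).map φ3).map
        (MulAut.conj (φA g)).toMonoidHom
  have triple : ∀ {i j l : (Fin (3 + k))}, i ≠ j → j ≠ l → i ≠ l → ∀ v w,
      X i j v * X j l w * (X i j v)⁻¹ * (X j l w)⁻¹ = X i l (v * w) := by
    intro i j l hij hjl hil v w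
    obtain ⟨g, a, b, c, rfl, rfl, rfl⟩ := pull i j l hij hil.symm hjl.symm
    rw [pullX g (ne_of hij), pullX g (ne_of hjl), pullX g (ne_of hil)]
    have e := congrArg φ3 (transvection_triple (F := F) (ne_of hij) (ne_of hjl) (ne_of hil) v w)
    simp only [map_mul, map_inv] at e
    show _ = φA g * φ3 (tv _ _) * _
    rw [show φ3 (tv (ne_of hil) (v * w)) = φ3 (transvection (ne_of hil) (v * w)) from rfl, ← e]
    simp only [tv, map_inv]
    group
  have hXmap : ∀ {i j : (Fin (3 + k))} (h : i ≠ j) v, π (X i j v) = transvection h v := by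
    intro i j h v
    obtain ⟨g, rfl, rfl⟩ := hexist i j h
    rw [hX, map_mul, map_mul, map_inv, hπA', hπ3', e01_eq, block_tv, altMatrix_conj]
  have hXgen : Subgroup.closure {y | ∃ i j v, i ≠ j ∧ y = X i j v} = ⊤ := by
    set K := Subgroup.closure {y | ∃ i j v, i ≠ j ∧ y = X i j v}
    have h3 : φ3.range ≤ K := by
      rw [MonoidHom.range_eq_map, ← hgen3, MonoidHom.map_closure, Subgroup.closure_le]
      rintro _ ⟨_, ⟨a, b, h, v, rfl⟩, rfl⟩
      exact Subgroup.subset_closure ⟨_, _, v, hcast h, hblock h v⟩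
    have hKn : ∀ (g : alternatingGroup (Fin (3 + k))), ∀ y ∈ K, φA g * y * (φA g)⁻¹ ∈ K := by
      intro g y hy
      have hle : K ≤ K.comap (MulAut.conj (φA g)).toMonoidHom := by
        refine (Subgroup.closure_le _).mpr ?_
        rintro _ ⟨i, j, v, hij, rfl⟩
        rw [SetLike.mem_coe, Subgroup.mem_comap, MulEquiv.coe_toMonoidHom, MulAut.conj_apply, hXconj g i j hij]
        exact Subgroup.subset_closure ⟨_, _, v, g.1.injective.ne hij, rfl⟩
      exact hle hy
    have hcK : φA c012 ∈ K := by rw [← rc]; exact h3 ⟨_, rfl⟩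
    have hA : φA.range ≤ K := by
      rintro _ ⟨s, rfl⟩
      have hs : s.1 ∈ Subgroup.map (alternatingGroup (Fin (3 + k))).subtype (K.comap φA) := by
        refine (Subgroup.closure_le _).mpr ?_ ((closure_cyc h01').ge s.2)
        rintro _ ⟨i, h0i, h1i, rfl⟩
        refine ⟨⟨_, cyc_mem h0i h01'⟩, ?_, rfl⟩
        rw [SetLike.mem_coe, Subgroup.mem_comap]
        obtain ⟨g, hg, hg'⟩ := exists_even_tuple ![p0, p2, p1] ![p0, p1, i]
          (by intro a b; fin_cases a <;> fin_cases b <;> simp [p0, p1, p2, Fin.ext_iff])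
          (by intro a b; fin_cases a <;> fin_cases b <;> simp [h0i, h0i.symm, h1i, h1i.symm, h01', h01'.symm])
          0 1 (by decide)
        have h := hKn ⟨g, hg⟩ _ hcK
        rw [← map_inv, ← map_mul, ← map_mul] at h
        rcases hg' with hg' | hg'
        · have e0 := hg' 0; have e1 := hg' 1; have e2 := hg' 2
          simp at e0 e1 e2
          convert h using 2
          exact Subtype.ext (by simp [c012, cyc_conj, e0, e1, e2])
        · have e0 := hg' 0; have e1 := hg' 1; have e2 := hg' 2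
          simp [swap_apply_def] at e0 e1 e2
          have h' := inv_mem h
          rw [← map_inv] at h'
          convert h' using 2
          refine Subtype.ext ?_
          have e : g * cyc p0 p2 p1 * g⁻¹ = (cyc p0 p1 i)⁻¹ := by
            rw [cyc_conj, e0, e1, e2, cyc_swap h01' h0i h1i]
          simp only [c012, Subgroup.coe_inv, Subgroup.coe_mul, e, inv_inv]
      obtain ⟨s', hs', e⟩ := hs
      rw [← show s' = s from Subtype.ext e]
      exact hs'
    rw [eq_top_iff, ← hgen, sup_le_iff]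
    exact ⟨h3, hA⟩
  have hSys : CfsgLib.SLPres.Sys X π := by
    refine ⟨@hadd, @comm, @triple, fun {i j} hij v w hv => ?_, hXgen, fun {i j} hij v => ?_⟩
    · obtain ⟨m, hmi, hmj⟩ := third i j
      exact CfsgLib.SLPres.rankOne_of_third (x := X) hadd comm triple hij hmi.symm hmj.symm v w hv
    · rw [hXmap hij]
      exact Matrix.SpecialLinearGroup.transvection_coe hij v
  exact CfsgLib.SLPres.injective_of_sys (3 + k) hSys (Fintype.card_fin _)

end CfsgLib.FewRels
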